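import Cfsg.Agent.PushingUp44.FixMod
import Cfsg.Agent.Eq.Def_PLocal

/-!
An axiomatic setting for pushing up pairs: finitely many groups `G i` sharing a Sylow subgroup `S` in a
finite ambient group, with possibly different `q i`, the bound `|X| * |C_S(X)| ≤ f` and a distinguished
central subgroup `W` of `S` lying in a word subgroup of `S`.
-/

set_option autoImplicit false

open scoped commutatorElement
open CfsgLib.PushingUp44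

namespace CfsgLib.PushPair39

variable {Γ : Type*} [Group Γ]

/-- The subgroup generated by the `p`-th powers and the commutators. -/
def fr (p : ℕ) (H : Subgroup Γ) : Subgroup Γ := Cfsg.powerClosure p 1 H ⊔ ⁅H, H⁆

/-- The word subgroup of the pushing up pair. -/
def wd (p : ℕ) (H : Subgroup Γ) : Subgroup Γ :=
  if p = 2 then ⁅fr p H, H⁆ ⊔ fr p (fr p H)
  else if p = 3 then ⁅⁅fr p H, H⁆, H⁆ ⊔ fr p (fr p H)
  else ⁅fr p H, H⁆ ⊔ Cfsg.powerClosure p 1 H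

/-- `G` acts quadratically on `M / N` with small fixed index and without fixed points. -/
structure SecPair (S G Q : Subgroup Γ) (q : ℕ) (M N : Subgroup Γ) : Prop where
  le_core : M ≤ Q
  normM : G ≤ Subgroup.normalizer (M : Set Γ)
  normN : G ≤ Subgroup.normalizer (N : Set Γ)
  le : N ≤ M
  comm : ∀ u ∈ M, ∀ v ∈ M, ⁅u, v⁆ ∈ N
  core : ∀ u ∈ M, ∀ x ∈ Q, ⁅u, x⁆ ∈ N
  quad : ∀ u ∈ M, ∀ s ∈ S, ∀ s' ∈ S, ⁅⁅u, s⁆, s'⁆ ∈ N
  noFix : ∀ u ∈ M, (∀ g ∈ G, ⁅u, g⁆ ∈ N) → u ∈ N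
  index : (fixMod M N (S : Set Γ)).relIndex M ≤ q
  nontrivial : ¬ M ≤ N

/-- An element acting as `diag(l, l⁻¹)` on every section of that kind. -/
def TorusLike (p : ℕ) (S G Q : Subgroup Γ) (q l : ℕ) (t : Γ) : Prop :=
  t ∈ G ∧ (∀ x ∈ S, t * x * t⁻¹ * (x ^ (l * l))⁻¹ ∈ Q) ∧
    ∀ M N : Subgroup Γ, SecPair S G Q q M N →
      (∀ u ∈ fixMod M N (S : Set Γ), t * u * t⁻¹ * (u ^ l)⁻¹ ∈ N) ∧
        ∀ κ : ℕ, l * κ % p = 1 → ∀ u ∈ M, t * u * t⁻¹ * (u ^ κ)⁻¹ ∈ fixMod M N (S : Set Γ)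

/-- The centre of an edge group. -/
def Zc (E : Subgroup Γ) : Subgroup Γ := E ⊓ Subgroup.centralizer (E : Set Γ)

/-- The data of a configuration for pushing up pairs. -/
structure Conf (Γ : Type*) [Group Γ] (ι : Type*) where
  p : ℕ
  prime : p.Prime
  q : ι → ℕ
  f : ℕ
  S : Subgroup Γ
  W : Subgroup Γ
  G : ι → Subgroup Γ
  Q : ι → Subgroup Γ
  V : ι → Subgroup Γ
  M : ι → Subgroup Γ
  base : ι
  isP : IsPGroup p S
  one_lt : ∀ i, 1 < q i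
  le_G : ∀ i, S ≤ G i
  Q_le : ∀ i, Q i ≤ S
  V_le : ∀ i, V i ≤ Q i
  M_le : ∀ i, M i ≤ G i
  exists_not_mem : ∀ i, ∃ g ∈ G i, g ∉ M i
  normQ : ∀ i, G i ≤ Subgroup.normalizer (Q i : Set Γ)
  normV : ∀ i, G i ≤ Subgroup.normalizer (V i : Set Γ)
  commVQ : ∀ i, Q i ≤ Subgroup.centralizer (V i : Set Γ)
  elem : ∀ i, ∀ v ∈ V i, v ^ p = 1
  center_eq : ∀ i, S ⊓ Subgroup.centralizer (S : Set Γ) = V i ⊓ Subgroup.centralizer (S : Set Γ)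
  gen_V : ∀ i (U : Subgroup Γ), G i ≤ Subgroup.normalizer (U : Set Γ) → Zc S ≤ U → V i ≤ U
  bound : ∀ i, ∀ a ∈ S, a ∉ Q i → q i ≤ (V i ⊓ Subgroup.centralizer ({a} : Set Γ)).relIndex (V i)
  card_le : ∀ i, (Q i).relIndex S ≤ q i
  gen : ∀ i, ∀ g ∈ G i, g ∉ M i → S ⊔ cj g S = G i
  ti : ∀ i, ∀ g ∈ G i, g ∉ M i → cj g S ⊓ M i ≤ Q i
  S_le_M : ∀ i, S ≤ M i
  f_le : ∀ X : Subgroup Γ, X ≤ S →
    Nat.card X * Nat.card (S ⊓ Subgroup.centralizer (X : Set Γ) : Subgroup Γ) ≤ f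
  f_eq : Nat.card S * Nat.card (Zc S) = f
  exists_A : ∀ i, ∃ A : Subgroup Γ, A ≤ S ∧ A ≤ Subgroup.centralizer (A : Set Γ) ∧
    Nat.card A * Nat.card A = f ∧ ¬ A ≤ Q i
  W_le : W ≤ Zc S
  W_wd : W ≤ wd p S
  W_norm : Subgroup.normalizer (S : Set Γ) ≤ Subgroup.normalizer (W : Set Γ)
  killer : ∀ i (N : Subgroup Γ), G i ≤ Subgroup.normalizer (N : Set Γ) → W ≤ N →
    S ⊓ Subgroup.centralizer (N : Set Γ) ≤ Q i
  torus : ∀ i (l : ℕ), ¬ p ∣ l →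
    SecPair S (G i) (Q i) (q i) (V i) (V i ⊓ Subgroup.centralizer (G i : Set Γ)) →
      ∃ t, TorusLike p S (G i) (Q i) (q i) l t

end CfsgLib.PushPair39
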