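import Cfsg.Agent.PushPair39.Transport

/-!
No critical path of length at least two starts at a vertex whose group normalises the module generated by
the first two modules.
-/

set_option autoImplicit false
set_option maxHeartbeats 400000
set_option linter.unusedSectionVars false

open scoped commutatorElement
open CfsgLib.PushingUp44 (cj mem_cj conj_mem_cj cj_one cj_cj cj_inv_cj cj_cj_inv cj_mono cj_le_cj cj_sup cj_inf
  cj_commutator cj_centralizer relIndex_cj cj_eq_of_le_normalizer cj_normalizer le_normalizer_of_conj_le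
  commute_of_le_centralizer comm_mul_left comm_mul_right commute_comm_one commute_of_comm_one
  exists_mul_of_mem_sup relIndex_pos relIndex_anti_left relIndex_mono_right eq_of_relIndex_le fixMod comm_symm_mem)
open CfsgLib.CentrallyLarge (cen)

namespace CfsgLib.PushPair39

theorem normal_fr {Γ : Type*} [Group Γ] (p : ℕ) {H K : Subgroup Γ} [Finite Γ]
    (h : K ≤ Subgroup.normalizer (H : Set Γ)) : K ≤ Subgroup.normalizer (fr p H : Set Γ) := by
  refine le_normalizer_of_conj_le fun x hx => ?_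
  have e := cj_eq_of_le_normalizer (h hx)
  rw [fr, cj_sup, cj_commutator, e]
  refine sup_le (le_sup_of_le_left ?_) le_sup_right
  rw [Cfsg.powerClosure, cj, MonoidHom.map_closure, Subgroup.closure_le]
  rintro _ ⟨_, ⟨a, ha, rfl⟩, rfl⟩
  refine Subgroup.subset_closure ⟨x * a * x⁻¹, e.le (conj_mem_cj ha), ?_⟩
  simp

namespace Conf

variable {Γ : Type*} [Group Γ] {ι : Type*} (c : Conf Γ ι)

/-- The configuration to be refuted. -/
structure Fixed (k : ℕ) (P : ℕ → c.Vtx) (E : ℕ → Subgroup Γ) : Prop where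
  isB : c.IsB k
  two_le : 2 ≤ k
  crit : c.IsCrit k P E
  normal : c.Gx (P 0) ≤ Subgroup.normalizer ((c.Vx (P 0) ⊔ c.Vx (P 1) : Subgroup Γ) : Set Γ)

variable {c} [Finite Γ] {k : ℕ} {P : ℕ → c.Vtx} {E : ℕ → Subgroup Γ}

namespace Fixed

variable (x : c.Fixed k P E)
include x

theorem step : c.Step (P 0) (P 1) (E 0) := x.crit.1 0 (by have := x.two_le; omega)
theorem sylA : c.Syl (P 0) (E 0) := x.step.syl_left
theorem sylB : c.Syl (P 1) (E 0) := x.step.syl_right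

theorem Vb_le_Qa : c.Vx (P 1) ≤ c.Qx (P 0) :=
  x.isB.small (j := 1) (by have := x.two_le; omega) (Near.cons x.step (near_self _))

theorem Va_le_Qb : c.Vx (P 0) ≤ c.Qx (P 1) :=
  x.isB.small (j := 1) (by have := x.two_le; omega) (Near.cons x.step.symm (near_self _))

theorem Vk_le_Qb : c.Vx (P k) ≤ c.Qx (P 1) :=
  x.isB.small (by have := x.two_le; omega) (x.crit.1.near (a := 1) (b := k) (by have := x.two_le; omega) le_rfl)

theorem decomp {e : Γ} (he : e ∈ E 0) : ∃ y ∈ c.Vx (P k), ∃ q ∈ c.Qx (P 0), y * q = e := by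
  rw [← x.isB.sup_eq x.crit] at he
  exact exists_mul_of_mem_sup
    (((x.isB.le_syl x.crit.1).trans (c.syl_le_Gx x.sylA)).trans (c.Gx_le_normalizer_Qx _)) he

theorem inf_le_Zc : c.Vx (P 0) ⊓ c.Vx (P 1) ≤ Zc (E 0) := fun v hv =>
  ⟨c.Vx_le_syl x.sylA hv.1, Subgroup.mem_centralizer_iff.2 fun e he => by
    obtain ⟨y, hy, q, hq, rfl⟩ := x.decomp he
    exact ((c.commute_Vx hv.2 (x.Vk_le_Qb hy)).symm.mul_left (c.commute_Vx hv.1 hq).symm).eq⟩

theorem W_le_Qa : c.Vx (P 0) ⊔ c.Vx (P 1) ≤ c.Qx (P 0) := sup_le (c.Vx_le_Qx _) x.Vb_le_Qa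

theorem mem_Qb {q : Γ} (hq : q ∈ c.Qx (P 0)) (hc : ∀ v ∈ c.Vx (P 1), Commute q v) : q ∈ c.Qx (P 1) := by
  by_contra hn
  have hle : c.Vx (P 1) ≤ Zc (E 0) := fun v hv =>
    mem_Zc_of_commute x.sylB (c.Qx_le_syl x.sylA hq) hn hv (hc v hv).symm
  have h1 := relIndex_Zc x.sylB
  rw [Subgroup.relIndex_eq_one.2 hle] at h1
  exact (c.one_lt _).ne h1

theorem cen_D : c.IsMem (E 0) (c.Qx (P 0) ⊓ c.Qx (P 1)) ∧
    E 0 ⊓ cen (c.Qx (P 0) ⊓ c.Qx (P 1)) = c.Vx (P 0) ⊔ c.Vx (P 1) := by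
  obtain ⟨ha, ha'⟩ := isMem_core x.sylA
  obtain ⟨hb, hb'⟩ := isMem_core x.sylB
  obtain ⟨-, h2, h3⟩ := IsMem.lattice x.sylA ha hb
  exact ⟨h2, by rw [h3, ha', hb']⟩

theorem D_comm {d u : Γ} (hd : d ∈ c.Qx (P 0) ⊓ c.Qx (P 1)) (hu : u ∈ c.Vx (P 0) ⊔ c.Vx (P 1)) : Commute d u := by
  refine (Subgroup.mem_centralizer_iff.1 ?_ u hu).symm
  rw [show Subgroup.centralizer ((c.Vx (P 0) ⊔ c.Vx (P 1) : Subgroup Γ) : Set Γ) =
    cen (c.Vx (P 0) ⊔ c.Vx (P 1)) from rfl, CfsgLib.CentrallyLarge.cen_sup]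
  exact ⟨c.Qx_le_centralizer _ hd.1, c.Qx_le_centralizer _ hd.2⟩

theorem D_normal : c.Gx (P 0) ≤ Subgroup.normalizer ((c.Qx (P 0) ⊓ c.Qx (P 1) : Subgroup Γ) : Set Γ) := by
  refine le_normalizer_of_conj_le fun g hg d hd => ?_
  rw [mem_cj] at hd
  have hq : d ∈ c.Qx (P 0) := by rw [← cj_Qx_eq hg, mem_cj]; exact hd.1
  refine ⟨hq, x.mem_Qb hq fun v hv => ?_⟩
  have hv' : g⁻¹ * v * g ∈ c.Vx (P 0) ⊔ c.Vx (P 1) := by
    have h1 := (Subgroup.mem_normalizer_iff.1 (x.normal (inv_mem hg)) v).1 (Subgroup.mem_sup_right hv)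
    rwa [inv_inv] at h1
  show d * v = v * d
  calc d * v = g * (g⁻¹ * d * g * (g⁻¹ * v * g)) * g⁻¹ := by group
    _ = g * (g⁻¹ * v * g * (g⁻¹ * d * g)) * g⁻¹ := by rw [(x.D_comm hd hv').eq]
    _ = _ := by group

theorem r_central {v y : Γ} (hv : v ∈ c.Vx (P 0)) (hy : y ∈ E 0) : ⁅v, y⁆ ∈ Zc (E 0) ⊓ c.Cx (P 1) := by
  refine ⟨comm_mem_Zc x.sylA hv hy, x.isB.commutator_le_second x.two_le x.crit ?_⟩
  rw [← x.isB.commutator_eq x.crit]
  exact Subgroup.commutator_mem_commutator hv hy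

/-- An element of a moved first module commutes with elements outside the core only centrally. -/
theorem moved_comm {g v e : Γ} (hg : g ∈ c.Gx (P 1)) (hv : v ∈ c.Vx (P 0)) (he : e ∈ c.Qx (P 1)) :
    ∃ e' ∈ E 0, ⁅g * v * g⁻¹, e⁆ = ⁅v, e'⁆ := by
  have he' : g⁻¹ * e * g ∈ c.Qx (P 1) := by rw [← mem_cj, cj_Qx_eq hg]; exact he
  refine ⟨g⁻¹ * e * g, c.Qx_le_syl x.sylB he', ?_⟩
  have hE := c.Qx_le_syl x.sylB he'
  rw [show ⁅g * v * g⁻¹, e⁆ = g * ⁅v, g⁻¹ * e * g⁆ * g⁻¹ by simp [commutatorElement_def, mul_assoc],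
    Subgroup.mem_centralizer_iff.1 (x.r_central hv hE).2 g hg, mul_inv_cancel_right]

theorem eq_one_of_central {v e : Γ} (hv : v ∈ c.Vx (P 0)) (he : e ∈ E 0) (hc : ⁅v, e⁆ ∈ c.Cx (P 0)) :
    ⁅v, e⁆ = 1 := comm_eq_one_of_central x.sylA hv he hc

/-- The case of a moved first module inside the first core, not centralised by the intersection of the
two cores. -/
theorem false_of_le_core {g v d : Γ} (hg : g ∈ c.Gx (P 1))
    (hQ : c.Vx (c.act g (P 0)) ≤ c.Qx (P 0)) (hv : v ∈ c.Vx (P 0)) (hd : d ∈ c.Qx (P 0) ⊓ c.Qx (P 1))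
    (hne : ⁅g * v * g⁻¹, d⁆ ≠ 1) : False := by
  set w := g * v * g⁻¹ with hw
  have hwV : w ∈ c.Vx (c.act g (P 0)) := by rw [Vx_act]; exact conj_mem_cj hv
  have hwQ : w ∈ c.Qx (P 0) := hQ hwV
  set F := cj g (E 0) with hF
  have hsF : c.Step (c.act g (P 0)) (P 1) F := (x.step.symm.act_right hg).symm
  obtain ⟨h, hh, hopp⟩ := exists_opp_elem x.sylA
  set E' := cj h (E 0) with hE'
  have hsyl' : c.Syl (P 0) E' := Syl.cj_eq c x.sylA hh
  obtain ⟨A, hA⟩ := exists_off hsyl'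
  obtain ⟨hLmem, hLcen, hCQ⟩ := hA.inf_core hsyl'
  set D := c.Qx (P 0) ⊓ c.Qx (P 1) with hD
  set W := c.Vx (P 0) ⊔ c.Vx (P 1) with hW
  have hDmem : c.IsMem E' D := by
    have := x.cen_D.1.cj h
    rwa [cj_eq_of_le_normalizer (x.D_normal hh)] at this
  have hDcen : E' ⊓ cen D = W := by
    have := congrArg (cj h) x.cen_D.2
    rw [cen, cj_inf, cj_centralizer, cj_eq_of_le_normalizer (x.D_normal hh),
      cj_eq_of_le_normalizer (x.normal hh)] at this
    exact this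
  obtain ⟨-, hXmem, hXcen⟩ := IsMem.lattice hsyl' hLmem hDmem
  set L := A ⊓ c.Qx (P 0) with hL
  set X := L ⊓ D with hX
  rw [hLcen, hDcen, sup_assoc, ← sup_assoc (c.Vx (P 0)) (c.Vx (P 0)) (c.Vx (P 1)), sup_idem] at hXcen
  have hWE : W ≤ E' := x.W_le_Qa.trans (c.Qx_le_syl hsyl')
  have hwE : w ∈ E' := c.Qx_le_syl hsyl' hwQ
  have hXF : X ≤ F := inf_le_right.trans (inf_le_right.trans (c.Qx_le_syl hsF.syl_right))
  have hAG : A ≤ c.Gx (P 0) := hA.1.trans (c.syl_le_Gx hsyl')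
  have hgen : ∀ a ∈ A, a ∉ c.Qx (P 0) → E 0 ⊔ Subgroup.zpowers a = c.Gx (P 0) := fun a ha haQ =>
    c.sup_zpowers x.sylA hsyl' (by rw [sup_comm, hopp]) (hA.1 ha) haQ
  have hcent : ∀ z ∈ Zc (E 0), ∀ a ∈ A, a ∉ c.Qx (P 0) → Commute a z → z ∈ c.Cx (P 0) := by
    intro z hz a ha haQ hc
    refine Subgroup.mem_centralizer_iff.2 fun s hs => Subgroup.mem_centralizer_singleton_iff.1 ?_
    refine (?_ : c.Gx (P 0) ≤ Subgroup.centralizer ({z} : Set Γ)) hs
    rw [← hgen a ha haQ]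
    exact sup_le (fun t ht => Subgroup.mem_centralizer_singleton_iff.2 (Subgroup.mem_centralizer_iff.1 hz.2 t ht))
      (Subgroup.zpowers_le.2 (Subgroup.mem_centralizer_singleton_iff.2 hc.eq))
  obtain ⟨a₀, ha₀, ha₀Q⟩ := SetLike.not_le_iff_exists.1 hA.2.2.2
  by_cases hcase : ∃ l ∈ X, ⁅w, l⁆ ≠ 1
  · obtain ⟨l, hl, hz⟩ := hcase
    have hnc : ∀ a ∈ A, a ∉ c.Qx (P 0) → ¬ Commute a ⁅w, l⁆ := by
      intro a ha haQ hc
      obtain ⟨e', he', ee⟩ := x.moved_comm hg hv hl.2.2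
      have hz' : ⁅w, l⁆ ∈ Zc (E 0) := by rw [hw, ee]; exact (x.r_central hv he').1
      have hCx := hcent _ hz' a ha haQ hc
      rw [hw, ee] at hCx hz
      exact hz (x.eq_one_of_central hv he' hCx)
    set X1 := X ⊓ cen (Subgroup.zpowers w) with hX1
    set C := E' ⊓ cen X with hC
    set C1 := E' ⊓ cen X1 with hC1
    have hCC1 : C ≤ C1 := inf_le_inf_left _ (Subgroup.centralizer_le inf_le_left)
    have hcomw : ∀ m ∈ X1, Commute m w := fun m hm =>
      (Subgroup.mem_centralizer_iff.1 hm.2 w (Subgroup.mem_zpowers w)).symm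
    have hwl : ¬ w ∈ C := fun hwC =>
      hz (commute_comm_one (Subgroup.mem_centralizer_iff.1 hwC.2 l hl).symm)
    have hconj : ∀ a ∈ A, a * w * a⁻¹ ∈ C1 := by
      intro a ha
      refine ⟨E'.mul_mem (E'.mul_mem (hA.1 ha) hwE) (E'.inv_mem (hA.1 ha)), Subgroup.mem_centralizer_iff.2 fun m hm => ?_⟩
      have h1 : Commute m a := commute_of_le_centralizer hA.2.1 hm.1.1.1 ha
      exact ((h1.mul_right (hcomw m hm)).mul_right h1.inv_right).eq
    classical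
    let φ : Option (A ⧸ (c.Qx (P 0)).subgroupOf A) → C1 ⧸ C.subgroupOf C1 := fun o => match o with
      | none => QuotientGroup.mk 1
      | some a => QuotientGroup.mk ⟨(a.out : Γ) * w * (a.out : Γ)⁻¹, hconj _ a.out.2⟩
    have hAC : A ≤ C := le_sup_left.trans hXcen.ge
    have hφ : Function.Injective φ := by
      have hnone : ∀ a, φ none ≠ φ (some a) := fun a e => by
        have h0 : (1 : C1)⁻¹ * ⟨(a.out : Γ) * w * (a.out : Γ)⁻¹, hconj _ a.out.2⟩ ∈ C.subgroupOf C1 :=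
          QuotientGroup.eq.1 e
        have h1 : (1 : Γ)⁻¹ * ((a.out : Γ) * w * (a.out : Γ)⁻¹) ∈ C := Subgroup.mem_subgroupOf.1 h0
        rw [inv_one, one_mul] at h1
        refine hwl ?_
        have h2 := C.mul_mem (C.mul_mem (C.inv_mem (hAC a.out.2)) h1) (hAC a.out.2)
        simpa [mul_assoc] using h2
      intro o o' e
      match o, o' with
      | none, none => rfl
      | none, some a => exact absurd e (hnone a)
      | some a, none => exact absurd e.symm (hnone a)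
      | some a, some b =>
        have h0 : (⟨(a.out : Γ) * w * (a.out : Γ)⁻¹, hconj _ a.out.2⟩ : C1)⁻¹ *
            ⟨(b.out : Γ) * w * (b.out : Γ)⁻¹, hconj _ b.out.2⟩ ∈ C.subgroupOf C1 := QuotientGroup.eq.1 e
        have h1 : ((a.out : Γ) * w * (a.out : Γ)⁻¹)⁻¹ * ((b.out : Γ) * w * (b.out : Γ)⁻¹) ∈ C :=
          Subgroup.mem_subgroupOf.1 h0
        set a3 := (a.out : Γ)⁻¹ * b.out with ha3
        have ha3A : a3 ∈ A := A.mul_mem (A.inv_mem a.out.2) b.out.2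
        have h2 := C.mul_mem (C.mul_mem (C.inv_mem (hAC a.out.2)) h1) (hAC a.out.2)
        have h3 : w⁻¹ * (a3 * w * a3⁻¹) ∈ C := by
          rw [ha3]; simpa [mul_assoc] using h2
        have hnl : Commute (w⁻¹ * (a3 * w * a3⁻¹)) l := (Subgroup.mem_centralizer_iff.1 h3.2 l hl).symm
        have hal : a3 * l * a3⁻¹ = l := by
          rw [(commute_of_le_centralizer hA.2.1 ha3A hl.1.1).eq, mul_inv_cancel_right]
        have h4 : Commute a3 ⁅w, l⁆ := by
          have : a3 * ⁅w, l⁆ * a3⁻¹ = ⁅w, l⁆ := by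
            calc a3 * ⁅w, l⁆ * a3⁻¹ = ⁅a3 * w * a3⁻¹, a3 * l * a3⁻¹⁆ := by
                  simp [commutatorElement_def, mul_assoc]
              _ = ⁅w * (w⁻¹ * (a3 * w * a3⁻¹)), l⁆ := by rw [hal, mul_inv_cancel_left]
              _ = ⁅w, l⁆ := by rw [comm_mul_left, commute_comm_one hnl, mul_one, mul_inv_cancel, one_mul]
          exact mul_inv_eq_iff_eq_mul.1 this
        have hQ3 : a3 ∈ c.Qx (P 0) := by_contra fun hn => hnc a3 ha3A hn h4
        have hab : a = b := by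
          rw [← a.out_eq, ← b.out_eq]
          exact QuotientGroup.eq.2 (show a3 ∈ c.Qx (P 0) from hQ3)
        rw [hab]
    have hcard := Nat.card_le_card_of_injective φ hφ
    rw [Finite.card_option] at hcard
    have h1 : (c.Qx (P 0)).relIndex A = c.q (P 0).1 := (hA.numbers hsyl').1
    rw [Subgroup.relIndex, Subgroup.index] at h1
    rw [h1] at hcard
    have h2 : X1.relIndex X ≤ c.q (P 0).1 := by
      rw [show c.q (P 0).1 = c.q (c.act g (P 0)).1 from rfl, ← relIndex_core hsF.syl_left]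
      refine le_trans ?_ (relIndex_mono_right _ hXF)
      rw [← Subgroup.inf_relIndex_left X (c.Qx (c.act g (P 0)))]
      refine relIndex_anti_left ?_ _
      intro m hm
      refine ⟨hm.1, Subgroup.mem_centralizer_iff.2 ?_⟩
      rintro _ ⟨i, rfl⟩
      exact ((c.commute_Vx hwV hm.2).zpow_left i).eq
    have h3 : C.relIndex C1 ≤ X1.relIndex X := by
      have e1 := card_mul_relIndex hCC1
      have e2 := card_mul_relIndex (inf_le_left : X1 ≤ X)
      have e3 := edge_f_le hsyl' (X := X1) (inf_le_left.trans hXmem.1)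
      rw [← hC1, ← hXmem.2, ← hC, ← e1, ← e2] at e3
      refine Nat.le_of_mul_le_mul_left ?_ (Nat.mul_pos (Nat.card_pos (α := X1)) (Nat.card_pos (α := C)))
      calc _ = Nat.card X1 * (Nat.card C * C.relIndex C1) := by ring
        _ ≤ _ := e3
        _ = _ := by ring
    have : Nat.card (C1 ⧸ C.subgroupOf C1) = C.relIndex C1 := rfl
    omega
  · push Not at hcase
    have hwC : w ∈ A ⊔ W := by
      rw [← hXcen]
      exact ⟨hwE, Subgroup.mem_centralizer_iff.2 fun m hm => (commute_of_comm_one (hcase m hm)).symm.eq⟩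
    obtain ⟨l₀, hl₀, u, hu, hw0⟩ := exists_mul_of_mem_sup (hAG.trans x.normal) hwC
    set m := u⁻¹ * (a₀⁻¹ * u * a₀) with hm
    have hmW : m ∈ W := by
      refine W.mul_mem (W.inv_mem hu) ?_
      have h1 := (Subgroup.mem_normalizer_iff.1 (x.normal (inv_mem (hAG ha₀))) u).1 hu
      rwa [inv_inv] at h1
    have ewm : a₀⁻¹ * w * a₀ = w * m := by
      have hc : a₀⁻¹ * l₀ * a₀ = l₀ := by
        rw [mul_assoc, (commute_of_le_centralizer hA.2.1 hl₀ ha₀).eq, inv_mul_cancel_left]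
      calc a₀⁻¹ * w * a₀ = (a₀⁻¹ * l₀ * a₀) * (a₀⁻¹ * u * a₀) := by rw [← hw0]; group
        _ = _ := by rw [hc, hm, ← hw0]; group
    have hd' : a₀⁻¹ * d * a₀ ∈ D := by
      have h1 := (Subgroup.mem_normalizer_iff.1 (x.D_normal (inv_mem (hAG ha₀))) d).1 hd
      rwa [inv_inv] at h1
    obtain ⟨e', he', ee⟩ := x.moved_comm hg hv hd.2
    obtain ⟨e'', he'', ee''⟩ := x.moved_comm hg hv hd'.2
    have ez : a₀⁻¹ * ⁅w, d⁆ * a₀ = ⁅w, a₀⁻¹ * d * a₀⁆ := by
      rw [show a₀⁻¹ * ⁅w, d⁆ * a₀ = ⁅a₀⁻¹ * w * a₀, a₀⁻¹ * d * a₀⁆ by simp [commutatorElement_def, mul_assoc],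
        ewm, comm_mul_left, commute_comm_one (x.D_comm hd' hmW).symm, mul_one, mul_inv_cancel, one_mul]
    have hz1 : ⁅w, d⁆ ∈ Zc (E 0) := by rw [hw, ee]; exact (x.r_central hv he').1
    have hz2 : a₀⁻¹ * ⁅w, d⁆ * a₀ ∈ Zc (E 0) := by rw [ez, hw, ee'']; exact (x.r_central hv he'').1
    have hCx : ⁅w, d⁆ ∈ c.Cx (P 0) := by
      have hg0 := c.opp_cj x.sylA hsyl' (by rw [sup_comm, hopp]) (hA.1 ha₀) ha₀Q
      refine Subgroup.mem_centralizer_iff.2 fun s hs => Subgroup.mem_centralizer_singleton_iff.1 ?_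
      refine (?_ : c.Gx (P 0) ≤ Subgroup.centralizer ({⁅w, d⁆} : Set Γ)) hs
      rw [← hg0]
      refine sup_le (fun t ht => Subgroup.mem_centralizer_singleton_iff.2
        (Subgroup.mem_centralizer_iff.1 hz1.2 t ht)) (fun t ht => Subgroup.mem_centralizer_singleton_iff.2 ?_)
      have h3 := Subgroup.mem_centralizer_iff.1 hz2.2 _ (mem_cj.1 ht)
      calc t * ⁅w, d⁆ = a₀ * (a₀⁻¹ * t * a₀ * (a₀⁻¹ * ⁅w, d⁆ * a₀)) * a₀⁻¹ := by group
        _ = a₀ * (a₀⁻¹ * ⁅w, d⁆ * a₀ * (a₀⁻¹ * t * a₀)) * a₀⁻¹ := by rw [h3]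
        _ = _ := by group
    rw [hw, ee] at hCx hne
    exact hne (x.eq_one_of_central hv he' hCx)

end Fixed

end Conf

end CfsgLib.PushPair39
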