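import Cfsg.Agent.PushPair39.OffEnd

/-!
No critical path starts at a fixed end: the case of moved first modules outside the first core, and the
conclusion.
-/

set_option autoImplicit false
set_option maxHeartbeats 400000
set_option linter.unusedSectionVars false

open scoped commutatorElement
open CfsgLib.PushingUp44 (cj mem_cj conj_mem_cj cj_one cj_cj cj_inv_cj cj_cj_inv cj_mono cj_le_cj cj_sup cj_inf
  cj_commutator cj_centralizer relIndex_cj cj_eq_of_le_normalizer cj_normalizer le_normalizer_of_conj_le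
  commute_of_le_centralizer comm_mul_left comm_mul_right commute_comm_one commute_of_comm_one
  exists_mul_of_mem_sup relIndex_pos relIndex_anti_left relIndex_mono_right eq_of_relIndex_le fixMod comm_symm_mem)
open CfsgLib.CentrallyLarge (cen)

namespace CfsgLib.PushPair39

namespace Conf

variable {Γ : Type*} [Group Γ] {ι : Type*} {c : Conf Γ ι} [Finite Γ] {k : ℕ} {P : ℕ → c.Vtx} {E : ℕ → Subgroup Γ}

namespace Fixed

variable (x : c.Fixed k P E)
include x

theorem false_of_all_off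
    (hB : ∀ g ∈ c.Gx (P 1), cj g (E 0) ⊔ E 0 = c.Gx (P 1) → ¬ c.Vx (c.act g (P 0)) ≤ c.Qx (P 0)) : False := by
  obtain ⟨g, hg, hopp⟩ := exists_opp_elem x.sylB
  have hsF : c.Step (P 1) (c.act g (P 0)) (cj g (E 0)) := x.step.symm.act_right hg
  have hk : k = 2 := by
    by_contra hne
    exact hB g hg hopp (x.isB.small (j := 2) (by have := x.two_le; omega)
      (Near.cons x.step (Near.cons hsF (near_self _))))
  subst hk
  exact Fixed.Off.elim (g := g) ⟨x, hg, hopp, hB⟩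

theorem false_of_killed {g₁ : Γ} (hg₁ : g₁ ∈ c.Gx (P 1)) (hopp₁ : cj g₁ (E 0) ⊔ E 0 = c.Gx (P 1))
    (hkill : c.Vx (P k) ≤ c.Qx (c.act g₁ (P 0))) : False := by
  by_cases hB : ∀ g ∈ c.Gx (P 1), cj g (E 0) ⊔ E 0 = c.Gx (P 1) → ¬ c.Vx (c.act g (P 0)) ≤ c.Qx (P 0)
  · exact x.false_of_all_off hB
  push Not at hB
  obtain ⟨g, hg, hopp, hQ⟩ := hB
  by_cases hne : ∃ v ∈ c.Vx (P 0), ∃ d ∈ c.Qx (P 0) ⊓ c.Qx (P 1), ⁅g * v * g⁻¹, d⁆ ≠ 1
  · obtain ⟨v, hv, d, hd, hne⟩ := hne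
    exact x.false_of_le_core hg hQ hv hd hne
  push Not at hne
  -- then the sum of the two modules is normal in both vertex groups
  set W := c.Vx (P 0) ⊔ c.Vx (P 1) with hW
  set D := c.Qx (P 0) ⊓ c.Qx (P 1) with hD
  have hgW : cj g W = W := by
    refine Subgroup.eq_of_le_of_card_ge ?_ (card_cj g W).ge
    rw [hW, cj_sup, cj_Vx_eq hg]
    refine sup_le (fun u hu => ?_) le_sup_right
    rw [← x.cen_D.2]
    refine ⟨c.Qx_le_syl x.sylA (hQ (by rw [Vx_act]; exact hu)), Subgroup.mem_centralizer_iff.2 fun d hd => ?_⟩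
    have h1 := hne _ (mem_cj.1 hu) d hd
    rw [show g * (g⁻¹ * u * g) * g⁻¹ = u by group] at h1
    exact (commute_of_comm_one h1).symm.eq
  have hnE : E 0 ≤ Subgroup.normalizer (W : Set Γ) := (c.syl_le_Gx x.sylA).trans x.normal
  have hnG : c.Gx (P 1) ≤ Subgroup.normalizer (W : Set Γ) := by
    rw [← hopp]
    refine sup_le ?_ hnE
    calc cj g (E 0) ≤ cj g (Subgroup.normalizer (W : Set Γ)) := cj_mono g hnE
      _ = _ := by rw [cj_normalizer, hgW]
  have hall : ∀ q ∈ c.Qx (P 1), ∀ v ∈ c.Vx (P 0), Commute (g₁ * v * g₁⁻¹) q := by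
    intro q hq v hv
    obtain ⟨y, hy, q', hq', rfl⟩ := x.decomp (c.Qx_le_syl x.sylB hq)
    have hd : q' ∈ D := ⟨hq', by simpa using (c.Qx (P 1)).mul_mem ((c.Qx (P 1)).inv_mem (x.Vk_le_Qb hy)) hq⟩
    have hwW : g₁ * v * g₁⁻¹ ∈ W := (Subgroup.mem_normalizer_iff.1 (hnG hg₁) v).1 (Subgroup.mem_sup_left hv)
    refine Commute.mul_right ?_ (x.D_comm hd hwW).symm
    exact c.commute_Vx (v := c.act g₁ (P 0)) (by rw [Vx_act]; exact conj_mem_cj hv) (hkill hy)
  have hcen : c.Vx (P 0) ≤ Zc (E 0) := by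
    intro v hv
    rw [← x.isB.centralizer_eq x.crit]
    refine ⟨hv, Subgroup.mem_centralizer_iff.2 fun y hy => ?_⟩
    have hy' : g₁ * y * g₁⁻¹ ∈ c.Qx (P 1) :=
      (Subgroup.mem_normalizer_iff.1 (c.Gx_le_normalizer_Qx _ hg₁) y).1 (x.Vk_le_Qb hy)
    have h1 := (hall _ hy' v hv).eq
    calc y * v = g₁⁻¹ * (g₁ * y * g₁⁻¹ * (g₁ * v * g₁⁻¹)) * g₁ := by group
      _ = g₁⁻¹ * (g₁ * v * g₁⁻¹ * (g₁ * y * g₁⁻¹)) * g₁ := by rw [h1]
      _ = _ := by group
  have h1 := relIndex_Zc x.sylA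
  rw [Subgroup.relIndex_eq_one.2 hcen] at h1
  exact (c.one_lt _).ne h1

omit x in
theorem false_of_opp {k : ℕ} {P : ℕ → c.Vtx} {E : ℕ → Subgroup Γ} (x : c.Fixed k P E)
    (hgood : E 0 ⊔ E 1 = c.Gx (P 1)) : False := by
  have hs1 : c.Step (P 1) (P 2) (E 1) := x.crit.1 1 (by have := x.two_le; omega)
  obtain ⟨g, hg, hgE⟩ := Syl.exists_conj x.sylB hs1.syl_left
  refine x.false_of_killed hg (by rw [hgE, sup_comm, hgood]) ?_
  have hst : c.Step (c.act g (P 0)) (P 2) (E 1) :=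
    Step.trans (hgE ▸ (x.step.symm.act_right hg).symm) hs1
  refine x.isB.small (j := k - 1) (by have := x.two_le; omega) ?_
  obtain ⟨P', E', hP', h0, hj⟩ := x.crit.1.near (a := 2) (b := k) x.two_le le_rfl
  have hn : c.Near (k - 2 + 1) (c.act g (P 0)) (P k) := Near.cons hst ⟨P', E', hP', h0, hj⟩
  rwa [show k - 2 + 1 = k - 1 by have := x.two_le; omega] at hn

/-- No critical path of length at least two has a fixed end. -/
theorem elim : False := by
  by_cases hkill : ∃ g ∈ c.Gx (P 1), cj g (E 0) ⊔ E 0 = c.Gx (P 1) ∧ c.Vx (P k) ≤ c.Qx (c.act g (P 0))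
  · obtain ⟨g, hg, hopp, hk⟩ := hkill
    exact x.false_of_killed hg hopp hk
  by_cases hgood : E 0 ⊔ E 1 = c.Gx (P 1)
  · exact false_of_opp x hgood
  push Not at hkill
  obtain ⟨g, hg, hopp⟩ := exists_opp_elem x.sylB
  obtain ⟨k, rfl⟩ : ∃ j, k = j + 1 := ⟨k - 1, by have := x.two_le; omega⟩
  have hs' : c.Step (c.act g (P 0)) (P 1) (cj g (E 0)) := (x.step.symm.act_right hg).symm
  have hs1 : c.Step (P 1) (P 2) (E 1) := x.crit.1 1 (by have := x.two_le; omega)
  refine false_of_opp (k := k + 1) (P := pre (c.act g (P 0)) fun i => P (i + 1))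
    (E := pre (cj g (E 0)) fun i => E (i + 1)) ⟨x.isB, x.two_le,
    ⟨IsB.path_replace x.crit.1 hs', by simpa only [pre_zero, pre_succ] using hkill g hg hopp⟩, ?_⟩ ?_
  · simp only [pre_zero, pre_succ]
    have h1 := cj_mono g x.normal
    rw [cj_normalizer, cj_sup, cj_Vx_eq hg] at h1
    rw [Gx_act, Vx_act]
    exact h1
  · simp only [pre_zero, pre_succ]
    rw [sup_comm]
    exact opp_congr x.sylB hs1.syl_left hs'.syl_right hgood (by rw [sup_comm, hopp])

end Fixed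

end Conf

end CfsgLib.PushPair39
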