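import Cfsg.Agent.PushPair39.Fixed

/-!
No critical path starts at a fixed end: the case of moved first modules outside the first core, and the
conclusion.
-/

set_option autoImplicit false
set_option maxHeartbeats 400000
set_option linter.unusedSectionVars false

open scoped commutatorElement
open CfsgLib.PushingUp44 (cj mem_cj conj_mem_cj cj_one cj_cj cj_inv_cj cj_cj_inv cj_mono cj_le_cj cj_sup cj_inf
  cj_commutator cj_centralizer relIndex_cj cj_eq_of_le_normalizer cj_normalizer le_normalizer_of_conj_le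
  commute_of_le_centralizer comm_mul_left comm_mul_right commute_comm_one commute_of_comm_one
  exists_mul_of_mem_sup relIndex_pos relIndex_anti_left relIndex_mono_right eq_of_relIndex_le fixMod comm_symm_mem)
open CfsgLib.CentrallyLarge (cen)

namespace CfsgLib.PushPair39

variable {Γ : Type*} [Group Γ]

theorem le_cen_fr (p : ℕ) {H T : Subgroup Γ} (hpow : ∀ a ∈ H, a ^ p ∈ T) (hcomm : ∀ a ∈ H, ∀ b ∈ H, ⁅a, b⁆ ∈ T) :
    fr p H ≤ T := by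
  refine sup_le ((Subgroup.closure_le _).2 ?_) (Subgroup.commutator_le.2 hcomm)
  rintro _ ⟨a, ha, rfl⟩
  rw [pow_one]
  exact hpow a ha

theorem pow_mem_fr (p : ℕ) {H : Subgroup Γ} {a : Γ} (ha : a ∈ H) : a ^ p ∈ fr p H :=
  Subgroup.mem_sup_left (Subgroup.subset_closure ⟨a, ha, by rw [pow_one]⟩)

theorem comm_mem_fr (p : ℕ) {H : Subgroup Γ} {a b : Γ} (ha : a ∈ H) (hb : b ∈ H) : ⁅a, b⁆ ∈ fr p H :=
  Subgroup.mem_sup_right (Subgroup.commutator_mem_commutator ha hb)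

namespace Conf

variable {ι : Type*} {c : Conf Γ ι} [Finite Γ] {k : ℕ} {P : ℕ → c.Vtx} {E : ℕ → Subgroup Γ}

namespace Fixed

variable (x : c.Fixed k P E)
include x

theorem triv_W {u g : Γ} (hu : u ∈ c.Vx (P 0) ⊔ c.Vx (P 1)) (hg : g ∈ c.Gx (P 0)) : ⁅g, u⁆ ∈ c.Vx (P 0) := by
  have hnV := c.Gx_le_normalizer_Vx (P 0)
  obtain ⟨h, hh, hopp⟩ := exists_opp_elem x.sylA
  have hWG : ∀ {e : Γ}, e ∈ c.Vx (P 0) → e ∈ c.Gx (P 0) := fun he =>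
    c.syl_le_Gx x.sylA (c.Vx_le_syl x.sylA he)
  have key : ∀ e ∈ E 0, ∀ u ∈ c.Vx (P 0) ⊔ c.Vx (P 1), ⁅e, u⁆ ∈ c.Vx (P 0) := by
    intro e he u hu
    obtain ⟨m, hm, v, hv, rfl⟩ := exists_mul_of_mem_sup
      (((x.Vb_le_Qa.trans (c.Qx_le_syl x.sylA)).trans (c.syl_le_Gx x.sylA)).trans hnV)
      (by rwa [sup_comm] at hu)
    rw [comm_mul_right]
    refine mul_mem (c.Zc_le_Vx x.sylA (comm_symm_mem (comm_mem_Zc x.sylB hm he))) ?_
    have hmG : m ∈ c.Gx (P 0) := c.syl_le_Gx x.sylA (c.Qx_le_syl x.sylA (x.Vb_le_Qa hm))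
    exact (Subgroup.mem_normalizer_iff.1 (hnV hmG) _).1
      (c.Zc_le_Vx x.sylA (comm_symm_mem (comm_mem_Zc x.sylA hv he)))
  have hle : c.Gx (P 0) ≤ fixMod ⊤ (c.Vx (P 0)) ((c.Vx (P 0) ⊔ c.Vx (P 1) : Subgroup Γ) : Set Γ) := by
    rw [← hopp]
    refine sup_le (fun s hs => ⟨trivial, hnV (c.syl_le_Gx (Syl.cj_eq c x.sylA hh) hs), fun w hw => ?_⟩)
      (fun s hs => ⟨trivial, hnV (c.syl_le_Gx x.sylA hs), key s hs⟩)
    have hw' : h⁻¹ * w * h ∈ c.Vx (P 0) ⊔ c.Vx (P 1) := by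
      have h1 := (Subgroup.mem_normalizer_iff.1 (x.normal (inv_mem hh)) w).1 hw
      rwa [inv_inv] at h1
    have h1 := key _ (mem_cj.1 hs) _ hw'
    rw [← cj_Vx_eq hh, mem_cj]
    simpa [commutatorElement_def, mul_assoc] using h1
  exact (hle hg).2.2 u hu

theorem comm_W_core {u q : Γ} (hu : u ∈ c.Vx (P 0) ⊔ c.Vx (P 1)) (hq : q ∈ c.Qx (P 0)) :
    ⁅q, u⁆ ∈ c.Cx (P 0) := by
  obtain ⟨h, hh, hopp⟩ := exists_opp_elem x.sylA
  have key : ∀ q ∈ c.Qx (P 0), ∀ u ∈ c.Vx (P 0) ⊔ c.Vx (P 1), ⁅q, u⁆ ∈ Zc (E 0) := by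
    intro q hq u hu
    obtain ⟨m, hm, v, hv, rfl⟩ := exists_mul_of_mem_sup
      (((x.Vb_le_Qa.trans (c.Qx_le_syl x.sylA)).trans (c.syl_le_Gx x.sylA)).trans (c.Gx_le_normalizer_Vx _))
      (by rwa [sup_comm] at hu)
    rw [comm_mul_right, commute_comm_one (c.commute_Vx hv hq).symm, mul_one, mul_inv_cancel, mul_one]
    exact comm_symm_mem (comm_mem_Zc x.sylB hm (c.Qx_le_syl x.sylA hq))
  have h2 : h⁻¹ * ⁅q, u⁆ * h ∈ Zc (E 0) := by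
    rw [show h⁻¹ * ⁅q, u⁆ * h = ⁅h⁻¹ * q * h, h⁻¹ * u * h⁆ by simp [commutatorElement_def, mul_assoc]]
    refine key _ ?_ _ ?_
    · rw [← mem_cj, cj_Qx_eq hh]; exact hq
    · have h1 := (Subgroup.mem_normalizer_iff.1 (x.normal (inv_mem hh)) u).1 hu
      rwa [inv_inv] at h1
  refine Subgroup.mem_centralizer_iff.2 fun s hs => Subgroup.mem_centralizer_singleton_iff.1 ?_
  refine (?_ : c.Gx (P 0) ≤ Subgroup.centralizer ({⁅q, u⁆} : Set Γ)) hs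
  rw [← hopp]
  refine sup_le (fun t ht => Subgroup.mem_centralizer_singleton_iff.2 ?_)
    (fun t ht => Subgroup.mem_centralizer_singleton_iff.2 (Subgroup.mem_centralizer_iff.1 (key q hq u hu).2 t ht))
  have h3 := Subgroup.mem_centralizer_iff.1 h2.2 _ (mem_cj.1 ht)
  calc t * ⁅q, u⁆ = h * (h⁻¹ * t * h * (h⁻¹ * ⁅q, u⁆ * h)) * h⁻¹ := by group
    _ = h * (h⁻¹ * ⁅q, u⁆ * h * (h⁻¹ * t * h)) * h⁻¹ := by rw [h3]
    _ = _ := by group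

theorem triv_core {q g : Γ} (hq : q ∈ c.Qx (P 0)) (hg : g ∈ c.Gx (P 0)) :
    q⁻¹ * (g * q * g⁻¹) ∈ c.Qx (P 0) ⊓ c.Qx (P 1) := by
  have hgq : g * q * g⁻¹ ∈ c.Qx (P 0) := (Subgroup.mem_normalizer_iff.1 (c.Gx_le_normalizer_Qx _ hg) q).1 hq
  refine ⟨(c.Qx (P 0)).mul_mem ((c.Qx (P 0)).inv_mem hq) hgq, x.mem_Qb ((c.Qx (P 0)).mul_mem ((c.Qx (P 0)).inv_mem hq) hgq) fun u hu => ?_⟩
  have huW : u ∈ c.Vx (P 0) ⊔ c.Vx (P 1) := Subgroup.mem_sup_right hu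
  set v := u⁻¹ * (g⁻¹ * u * g) with hv'
  have hv : v ∈ c.Vx (P 0) := by
    have huG : u ∈ c.Gx (P 0) := c.syl_le_Gx x.sylA (c.Qx_le_syl x.sylA (x.Vb_le_Qa hu))
    have h1 : u⁻¹ * ⁅g⁻¹, u⁆ * u ∈ c.Vx (P 0) := by
      have h2 := (Subgroup.mem_normalizer_iff.1 (c.Gx_le_normalizer_Vx _ (inv_mem huG)) _).1
        (x.triv_W huW (inv_mem hg))
      rwa [inv_inv] at h2
    rwa [show u⁻¹ * ⁅g⁻¹, u⁆ * u = v by rw [hv', commutatorElement_def]; group] at h1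
  have hC : ⁅q, u⁆ ∈ c.Cx (P 0) := x.comm_W_core huW hq
  have e1 : g⁻¹ * u * g = u * v := by rw [hv']; group
  have e2 : g * q * g⁻¹ * u * (g * q * g⁻¹)⁻¹ = ⁅q, u⁆ * u := by
    calc g * q * g⁻¹ * u * (g * q * g⁻¹)⁻¹ = g * (q * (u * v) * q⁻¹) * g⁻¹ := by rw [← e1]; group
      _ = g * (q * u * q⁻¹ * (q * v * q⁻¹)) * g⁻¹ := by group
      _ = g * ⁅q, u⁆ * g⁻¹ * (g * (u * v) * g⁻¹) := by
          rw [(c.commute_Vx hv hq).symm.eq, mul_inv_cancel_right, commutatorElement_def]; group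
      _ = ⁅q, u⁆ * u := by rw [Subgroup.mem_centralizer_iff.1 hC g hg, mul_inv_cancel_right, ← e1]; group
  have e3 : q * u * q⁻¹ = ⁅q, u⁆ * u := by rw [commutatorElement_def]; group
  show q⁻¹ * (g * q * g⁻¹) * u = u * (q⁻¹ * (g * q * g⁻¹))
  calc q⁻¹ * (g * q * g⁻¹) * u = q⁻¹ * (g * q * g⁻¹ * u * (g * q * g⁻¹)⁻¹) * (g * q * g⁻¹) := by group
    _ = q⁻¹ * (q * u * q⁻¹) * (g * q * g⁻¹) := by rw [e2, e3]
    _ = _ := by group

end Fixed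

end Conf

end CfsgLib.PushPair39
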