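import Cfsg.Agent.PushPair39.Member

/-!
Critical paths: the end modules, and their commutator centralised by the second vertex group.
-/

set_option autoImplicit false
set_option maxHeartbeats 400000
set_option linter.unusedSectionVars false

open scoped commutatorElement
open CfsgLib.PushingUp44 (cj mem_cj conj_mem_cj cj_one cj_cj cj_inv_cj cj_cj_inv cj_mono cj_le_cj cj_sup cj_inf
  cj_commutator cj_centralizer relIndex_cj cj_eq_of_le_normalizer cj_normalizer le_normalizer_of_conj_le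
  commute_of_le_centralizer comm_mul_left comm_mul_right commute_comm_one commute_of_comm_one
  exists_mul_of_mem_sup relIndex_pos relIndex_anti_left relIndex_mono_right eq_of_relIndex_le)
open CfsgLib.CentrallyLarge (cen)

namespace CfsgLib.PushPair39

namespace Conf

variable {Γ : Type*} [Group Γ] {ι : Type*} (c : Conf Γ ι)

/-- A path of length `k` whose end modules do not fit into each other's core. -/
def IsCrit (k : ℕ) (P : ℕ → c.Vtx) (E : ℕ → Subgroup Γ) : Prop :=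
  c.IsPath k P E ∧ ¬ c.Vx (P k) ≤ c.Qx (P 0)

/-- Shorter paths have commuting end modules. -/
structure IsB (k : ℕ) : Prop where
  pos : 1 ≤ k
  small : ∀ {j : ℕ} {v w : c.Vtx}, j < k → c.Near j v w → c.Vx w ≤ c.Qx v

variable {c} [Finite Γ] {k : ℕ} {P : ℕ → c.Vtx} {E : ℕ → Subgroup Γ}

theorem cj_Cx_eq {v : c.Vtx} {x : Γ} (hx : x ∈ c.Gx v) : cj x (c.Cx v) = c.Cx v := by
  rw [Cx, cj_centralizer, cj_Gx_eq hx]

namespace IsB

theorem le_syl (hk : c.IsB k) (hP : c.IsPath k P E) : c.Vx (P k) ≤ E 0 := by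
  have hpos := hk.pos
  exact (hk.small (by omega) (hP.near (a := 1) (by omega) le_rfl)).trans
    (c.Qx_le_syl (hP 0 (by omega)).syl_right)

theorem inf_centralizer (hk : c.IsB k) (hP : c.IsPath k P E) :
    c.Vx (P k) ⊓ Subgroup.centralizer (c.Vx (P 0) : Set Γ) = c.Vx (P k) ⊓ c.Qx (P 0) := by
  refine le_antisymm (fun x hx => ⟨hx.1, ?_⟩) (inf_le_inf_left _ (c.Qx_le_centralizer _))
  by_contra hxQ
  have hpos := hk.pos
  have h1 := c.syl_bound (hP 0 (by omega)).syl_left (hk.le_syl hP hx.1) hxQ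
  have h2 : c.Vx (P 0) ≤ c.Vx (P 0) ⊓ Subgroup.centralizer ({x} : Set Γ) := fun y hy =>
    ⟨hy, Subgroup.mem_centralizer_singleton_iff.2 (Subgroup.mem_centralizer_iff.1 hx.2 y hy)⟩
  rw [Subgroup.relIndex_eq_one.2 h2] at h1
  exact absurd (c.one_lt (P 0).1) (not_lt.2 h1)

theorem not_commute_iff (hk : c.IsB k) (hP : c.IsPath k P E) :
    ¬ c.Vx (P k) ≤ Subgroup.centralizer (c.Vx (P 0) : Set Γ) ↔ ¬ c.Vx (P k) ≤ c.Qx (P 0) := by
  rw [← inf_eq_left, hk.inf_centralizer hP, inf_eq_left]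

theorem reverse (hk : c.IsB k) (hc : c.IsCrit k P E) :
    c.IsCrit k (fun i => P (k - i)) (fun i => E (k - 1 - i)) := by
  refine ⟨hc.1.reverse, (hk.not_commute_iff hc.1.reverse).1 ?_⟩
  have h := (hk.not_commute_iff hc.1).2 hc.2
  simp only [Nat.sub_self, Nat.sub_zero]
  rwa [Subgroup.le_centralizer_iff]

theorem le_syl_last (hk : c.IsB k) (hP : c.IsPath k P E) : c.Vx (P 0) ≤ E (k - 1) := by
  simpa using hk.le_syl hP.reverse

theorem centralizer_eq_inf_core (hk : c.IsB k) (hP : c.IsPath k P E) :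
    c.Vx (P 0) ⊓ Subgroup.centralizer (c.Vx (P k) : Set Γ) = c.Vx (P 0) ⊓ c.Qx (P k) := by
  simpa using hk.inf_centralizer hP.reverse

/-- Both ends have the same `q`, and `|V_0 : C_{V_0}(V_k)| = q`. -/
theorem relIndex_ends (hk : c.IsB k) (hc : c.IsCrit k P E) :
    c.q (P 0).1 = c.q (P k).1 ∧ (c.Qx (P k)).relIndex (c.Vx (P 0)) = c.q (P 0).1 := by
  have hpos := hk.pos
  have key : ∀ {P : ℕ → c.Vtx} {E : ℕ → Subgroup Γ}, c.IsCrit k P E →
      c.q (P 0).1 ≤ (c.Qx (P k)).relIndex (c.Vx (P 0)) ∧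
        (c.Qx (P k)).relIndex (c.Vx (P 0)) ≤ c.q (P k).1 := by
    intro P E hc
    refine ⟨?_, (relIndex_mono_right _ (hk.le_syl_last hc.1)).trans ?_⟩
    · obtain ⟨x, hx, hxQ⟩ := SetLike.not_le_iff_exists.1 hc.2
      refine (c.syl_bound (hc.1 0 (by omega)).syl_left (hk.le_syl hc.1 hx) hxQ).trans ?_
      rw [← Subgroup.inf_relIndex_left (c.Vx (P 0)) (c.Qx (P k)), ← hk.centralizer_eq_inf_core hc.1]
      refine relIndex_anti_left (inf_le_inf_left _ fun y hy => ?_) _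
      exact Subgroup.mem_centralizer_singleton_iff.2 (Subgroup.mem_centralizer_iff.1 hy x hx).symm
    · refine c.syl_card ?_
      have h := (hc.1 (k - 1) (by omega)).syl_right
      rwa [show k - 1 + 1 = k by omega] at h
  obtain ⟨h1, h2⟩ := key hc
  obtain ⟨h3, h4⟩ := key (hk.reverse hc)
  simp only [Nat.sub_self, Nat.sub_zero] at h3 h4
  exact ⟨le_antisymm (h1.trans h2) (h3.trans h4), le_antisymm (by omega) h1⟩

theorem relIndex_end' (hk : c.IsB k) (hc : c.IsCrit k P E) :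
    (c.Qx (P 0)).relIndex (c.Vx (P k)) = c.q (P 0).1 := by
  have h := (hk.relIndex_ends (hk.reverse hc)).2
  simp only [Nat.sub_self, Nat.sub_zero] at h
  rw [h, (hk.relIndex_ends hc).1]

/-- `V_k O_p(G_0)` is the first edge group. -/
theorem sup_eq (hk : c.IsB k) (hc : c.IsCrit k P E) : c.Vx (P k) ⊔ c.Qx (P 0) = E 0 := by
  have hpos := hk.pos
  have hQE := c.Qx_le_syl (hc.1 0 (by omega)).syl_left
  set X := c.Vx (P k) ⊔ c.Qx (P 0) with hX
  have hXE : X ≤ E 0 := sup_le (hk.le_syl hc.1) hQE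
  refine le_antisymm hXE (Subgroup.relIndex_eq_one.1 ?_)
  have h1 := Subgroup.relIndex_mul_relIndex _ _ _ (le_sup_right : c.Qx (P 0) ≤ X) hXE
  rw [relIndex_core (hc.1 0 (by omega)).syl_left] at h1
  have h2 := relIndex_mono_right (c.Qx (P 0)) (le_sup_left : c.Vx (P k) ≤ X)
  rw [hk.relIndex_end' hc] at h2
  have h3 := relIndex_pos X (E 0)
  have := c.one_lt (P 0).1
  nlinarith

theorem sup_eq' (hk : c.IsB k) (hc : c.IsCrit k P E) : c.Vx (P 0) ⊔ c.Qx (P k) = E (k - 1) := by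
  simpa using hk.sup_eq (hk.reverse hc)

/-- `C_{V_0}(V_k)` is the centre of the first edge group. -/
theorem centralizer_eq (hk : c.IsB k) (hc : c.IsCrit k P E) :
    c.Vx (P 0) ⊓ Subgroup.centralizer (c.Vx (P k) : Set Γ) = Zc (E 0) := by
  have hpos := hk.pos
  rw [c.Zc_eq (hc.1 0 (by omega)).syl_left]
  refine le_antisymm (le_inf inf_le_left ?_)
    (inf_le_inf_left _ (Subgroup.centralizer_le (SetLike.coe_subset_coe.2 (hk.le_syl hc.1))))
  rw [← hk.sup_eq hc, Subgroup.le_centralizer_iff]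
  refine sup_le ?_ ((c.Qx_le_centralizer _).trans (Subgroup.centralizer_le (SetLike.coe_subset_coe.2 inf_le_left)))
  rw [Subgroup.le_centralizer_iff]
  exact inf_le_right

theorem commutator_le_inf (hk : c.IsB k) (hc : c.IsCrit k P E) :
    ⁅c.Vx (P 0), c.Vx (P k)⁆ ≤ c.Vx (P 0) ⊓ c.Vx (P k) := by
  have hpos := hk.pos
  have h0 : c.Vx (P k) ≤ Subgroup.normalizer (c.Vx (P 0) : Set Γ) := by
    refine (hk.le_syl hc.1).trans ((c.syl_le_Gx (hc.1 0 (by omega)).syl_left).trans ?_)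
    rw [Gx, Vx, ← cj_normalizer]
    exact cj_mono _ (c.normV _)
  have hk' : c.Vx (P 0) ≤ Subgroup.normalizer (c.Vx (P k) : Set Γ) := by
    refine (hk.le_syl_last hc.1).trans ?_
    have h := (hc.1 (k - 1) (by omega)).syl_right
    rw [show k - 1 + 1 = k by omega] at h
    refine (c.syl_le_Gx h).trans ?_
    rw [Gx, Vx, ← cj_normalizer]
    exact cj_mono _ (c.normV _)
  exact le_inf (Subgroup.le_normalizer_iff_commutator_le_left.1 h0) (Subgroup.le_normalizer_iff_commutator_le_right.1 hk')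

theorem commutator_le_Zc (hk : c.IsB k) (hc : c.IsCrit k P E) :
    ⁅c.Vx (P 0), c.Vx (P k)⁆ ≤ Zc (E 0) := by
  rw [← hk.centralizer_eq hc]
  exact (hk.commutator_le_inf hc).trans (inf_le_inf_left _ (c.Vx_comm _))

theorem commutator_eq (hk : c.IsB k) (hc : c.IsCrit k P E) :
    ⁅c.Vx (P 0), E 0⁆ = ⁅c.Vx (P 0), c.Vx (P k)⁆ := by
  have hpos := hk.pos
  refine le_antisymm (Subgroup.commutator_le.2 fun w hw s hs => ?_)
    (Subgroup.commutator_mono le_rfl (hk.le_syl hc.1))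
  rw [← hk.sup_eq hc] at hs
  have hn : c.Vx (P k) ≤ Subgroup.normalizer (c.Qx (P 0) : Set Γ) := by
    refine (hk.le_syl hc.1).trans ((c.syl_le_Gx (hc.1 0 (by omega)).syl_left).trans ?_)
    rw [Gx, Qx, ← cj_normalizer]
    exact cj_mono _ (c.normQ _)
  obtain ⟨v, hv, x, hx, rfl⟩ := exists_mul_of_mem_sup hn hs
  rw [comm_mul_right, commute_comm_one (c.commute_Vx hw hx), mul_one, mul_inv_cancel, mul_one]
  exact Subgroup.commutator_mem_commutator hw hv

/-- Replace the first vertex of a path. -/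
theorem path_replace (hP : c.IsPath k P E) {μ : c.Vtx} {F : Subgroup Γ} (hs : c.Step μ (P 1) F) :
    c.IsPath k (pre μ fun i => P (i + 1)) (pre F fun i => E (i + 1)) := by
  intro i hi
  cases i with
  | zero => exact hs
  | succ i => exact hP (i + 1) hi

/-- For paths of length at least two the commutator of the end modules is central at the second vertex. -/
theorem commutator_le_second (hk : c.IsB k) (h2 : 2 ≤ k) (hc : c.IsCrit k P E) :
    ⁅c.Vx (P 0), c.Vx (P k)⁆ ≤ c.Cx (P 1) := by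
  obtain ⟨k, rfl⟩ : ∃ j, k = j + 1 := ⟨k - 1, by omega⟩
  have hs : c.Step (P 0) (P 1) (E 0) := hc.1 0 (by omega)
  have hEb := hs.syl_right
  have hr0 := hk.commutator_le_Zc hc
  by_cases hcrit : ∃ g ∈ c.Gx (P 1), cj g (E 0) ⊔ E 0 = c.Gx (P 1) ∧
      ¬ c.Vx (P (k + 1)) ≤ c.Qx (c.act g (P 0))
  · obtain ⟨g, hg, hopp, hn⟩ := hcrit
    have hc' : c.IsCrit (k + 1) (pre (c.act g (P 0)) fun i => P (i + 1))
        (pre (cj g (E 0)) fun i => E (i + 1)) :=
      ⟨path_replace hc.1 (hs.symm.act_right hg).symm, by simpa only [pre_zero, pre_succ] using hn⟩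
    have e1 := hk.commutator_eq (hk.reverse hc)
    have e2 := hk.commutator_eq (hk.reverse hc')
    have hz := hk.commutator_le_Zc hc'
    obtain ⟨j, rfl⟩ : ∃ j, k = j + 1 := ⟨k - 1, by omega⟩
    simp only [Nat.sub_self, Nat.sub_zero, Nat.add_sub_cancel, pre_succ, pre_zero] at e1 e2 hz
    rw [Subgroup.commutator_comm, ← e2, e1, Subgroup.commutator_comm] at hz
    intro z hzr
    refine Subgroup.mem_centralizer_iff.2 fun s hs' => Subgroup.mem_centralizer_singleton_iff.1 ?_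
    refine (?_ : c.Gx (P 1) ≤ Subgroup.centralizer ({z} : Set Γ)) hs'
    rw [← hopp]
    exact sup_le (fun t ht => Subgroup.mem_centralizer_singleton_iff.2
        (Subgroup.mem_centralizer_iff.1 (hz hzr).2 t ht))
      (fun t ht => Subgroup.mem_centralizer_singleton_iff.2
        (Subgroup.mem_centralizer_iff.1 (hr0 hzr).2 t ht))
  push Not at hcrit
  obtain ⟨g, hg, hopp⟩ := exists_opp_elem hEb
  have hs' : c.Step (c.act g (P 0)) (P 1) (cj g (E 0)) := (hs.symm.act_right hg).symm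
  set a' := c.act g (P 0) with ha'
  set F := cj g (E 0) with hF
  obtain ⟨B, hB⟩ := exists_off hEb
  obtain ⟨hLmem, hLcen, hCQ⟩ := hB.inf_core hEb
  obtain ⟨c₀, hc₀, hc₀Q⟩ := SetLike.not_le_iff_exists.1 hB.2.2.2
  set L := B ⊓ c.Qx (P 1) with hL
  set C := B ⊔ c.Vx (P 1) with hC
  set w := c.Vx a' with hw
  have hwQ : w ≤ c.Qx (P 1) := hk.small (j := 1) (by omega) (Near.cons hs'.symm (near_self a'))
  have hwE : w ≤ E 0 := hwQ.trans (c.Qx_le_syl hEb)
  have hLF : L ≤ F := inf_le_right.trans (c.Qx_le_syl hs'.syl_right)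
  have hVkQ : c.Vx (P (k + 1)) ≤ c.Qx (P 1) :=
    hk.small (by omega) (hc.1.near (a := 1) (b := k + 1) (by omega) le_rfl)
  have hGb := c.Gx_le_normalizer_Vx (P 1)
  have htest : ∀ y ∈ c.Vx (P (k + 1)), ∀ e ∈ E 0, e ∉ c.Qx (P 1) → ∀ u ∈ w,
      Commute (g * y * g⁻¹) (e * u * e⁻¹) := by
    intro y hy e he heQ u hu
    rw [hw, ha', Vx_act, mem_cj] at hu
    set g' := g⁻¹ * e * g with hg'
    have hg'G : g' ∈ c.Gx (P 1) := mul_mem (mul_mem (inv_mem hg) (c.syl_le_Gx hEb he)) hg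
    have hopp' : cj g' (E 0) ⊔ E 0 = c.Gx (P 1) := by
      refine CfsgLib.PushingUp44.cj_injective g ?_
      rw [cj_sup, cj_cj, cj_Gx_eq hg, show g * g' = e * g by rw [hg']; group, ← cj_cj, sup_comm]
      exact c.opp_cj hs'.syl_right hEb hopp he heQ
    have hcomm := c.commute_Vx (v := c.act g' (P 0))
      (show g' * (g⁻¹ * u * g) * g'⁻¹ ∈ _ by rw [Vx_act]; exact conj_mem_cj hu)
      (hcrit g' hg'G hopp' hy)
    have h3 := hcomm.symm.map (MulAut.conj g).toMonoidHom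
    simp only [MulEquiv.coe_toMonoidHom, MulAut.conj_apply] at h3
    rwa [show g * (g' * (g⁻¹ * u * g) * g'⁻¹) * g⁻¹ = e * u * e⁻¹ by rw [hg']; group] at h3
  have hint : w ⊓ C ≤ Zc F := by
    rintro x ⟨hxw, hxC⟩
    obtain ⟨l, hl, u, hu, rfl⟩ := exists_mul_of_mem_sup
      ((hLF.trans (c.syl_le_Gx hs'.syl_right)).trans hGb) (hCQ.le ⟨hxC, hwQ hxw⟩)
    have hcu : c₀ * u * c₀⁻¹ ∈ c.Vx (P 1) :=
      (Subgroup.mem_normalizer_iff.1 (hGb (c.syl_le_Gx hEb (hB.1 hc₀))) u).1 hu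
    have hcl : c₀ * l * c₀⁻¹ = l := by
      rw [(commute_of_le_centralizer hB.2.1 hc₀ hl.1).eq, mul_inv_cancel_right]
    have hx : ∀ y ∈ c.Vx (P (k + 1)), Commute (g * y * g⁻¹) (l * u) := by
      intro y hy
      have hyQ : g * y * g⁻¹ ∈ c.Qx (P 1) :=
        (Subgroup.mem_normalizer_iff.1 (c.Gx_le_normalizer_Qx _ hg) y).1 (hVkQ hy)
      have h1 := htest y hy c₀ (hB.1 hc₀) hc₀Q _ hxw
      have h2 := (c.commute_Vx (mul_mem (inv_mem hcu) hu) hyQ).symm
      have h3 := h1.mul_right h2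
      rwa [show c₀ * (l * u) * c₀⁻¹ * ((c₀ * u * c₀⁻¹)⁻¹ * u) = c₀ * l * c₀⁻¹ * u by group, hcl] at h3
    rw [hF, Zc_cj, mem_cj, ← hk.centralizer_eq hc]
    have hxw' : l * u ∈ cj g (c.Vx (P 0)) := by rw [← Vx_act]; exact hxw
    refine ⟨mem_cj.1 hxw', Subgroup.mem_centralizer_iff.2 fun y hy => ?_⟩
    calc y * (g⁻¹ * (l * u) * g) = g⁻¹ * (g * y * g⁻¹ * (l * u)) * g := by group
      _ = g⁻¹ * (l * u * (g * y * g⁻¹)) * g := by rw [(hx y hy).eq]
      _ = _ := by group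
  set L2 := L ⊓ cen w with hL2
  set C2 := E 0 ⊓ cen L2 with hC2
  have hCC2 : C ≤ C2 := hLcen.ge.trans
    (inf_le_inf_left _ (Subgroup.centralizer_le (SetLike.coe_subset_coe.2 inf_le_left)))
  have hwC2 : w ≤ C2 := le_inf hwE (Subgroup.le_centralizer_iff.1 inf_le_right)
  have hLQ : L2.relIndex L ≤ (c.Qx a').relIndex L := by
    rw [← Subgroup.inf_relIndex_left L (c.Qx a')]
    exact relIndex_anti_left (inf_le_inf_left _ (c.Qx_le_centralizer a')) _
  have hQF : (c.Qx a').relIndex L ≤ c.q a'.1 :=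
    (relIndex_mono_right _ hLF).trans (c.syl_card hs'.syl_left)
  have h5 : c.q a'.1 ≤ C.relIndex w := by
    rw [← relIndex_Zc hs'.syl_left, ← Subgroup.inf_relIndex_left w C]
    exact relIndex_anti_left hint _
  have h6 : C.relIndex w ≤ C.relIndex C2 := relIndex_mono_right _ hwC2
  have h7 : C.relIndex C2 ≤ L2.relIndex L := by
    have e1 := card_mul_relIndex hCC2
    have e2 := card_mul_relIndex (inf_le_left : L2 ≤ L)
    have e3 := edge_f_le hEb (X := L2) (inf_le_left.trans (inf_le_left.trans hB.1))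
    rw [← hC2, ← hLmem.2, hLcen, ← e1, ← e2] at e3
    refine Nat.le_of_mul_le_mul_left ?_ (Nat.mul_pos (Nat.card_pos (α := L2)) (Nat.card_pos (α := C)))
    calc _ = Nat.card L2 * (Nat.card C * C.relIndex C2) := by ring
      _ ≤ _ := e3
      _ = _ := by ring
  have hgen : ⁅w, F⁆ ≤ c.Cx (P 1) := by
    refine Subgroup.commutator_le.2 fun x hx e he => ?_
    obtain ⟨l, hl, t, ht, rfl⟩ := exists_mul_of_le_relIndex (c.Qx_le_syl hs'.syl_left) hLF (by
      rw [relIndex_core hs'.syl_left]; omega) he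
    rw [comm_mul_right, commute_comm_one (c.commute_Vx hx ht), mul_one, mul_inv_cancel, mul_one]
    have hxC2 : c₀ * x * c₀⁻¹ ∈ C2 := by
      refine ⟨(E 0).mul_mem ((E 0).mul_mem (hB.1 hc₀) (hwE hx)) ((E 0).inv_mem (hB.1 hc₀)),
        Subgroup.mem_centralizer_iff.2 fun m hm => ?_⟩
      have h1 : Commute m c₀ := commute_of_le_centralizer hB.2.1 hm.1.1 hc₀
      exact ((h1.mul_right (Subgroup.mem_centralizer_iff.1 hm.2 x hx).symm).mul_right h1.inv_right).eq
    obtain ⟨x', hx', d, hd, hxd⟩ := exists_mul_of_le_relIndex hCC2 hwC2 (by omega) hxC2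
    have hdl : Commute d l := (commute_of_le_centralizer ((hLcen ▸ (inf_le_right : E 0 ⊓ cen L ≤ cen L)) ) hd hl)
    have hcl : c₀ * l * c₀⁻¹ = l := by
      rw [(commute_of_le_centralizer hB.2.1 hc₀ hl.1).eq, mul_inv_cancel_right]
    have e : c₀ * ⁅x, l⁆ * c₀⁻¹ = ⁅x', l⁆ := by
      calc c₀ * ⁅x, l⁆ * c₀⁻¹ = ⁅c₀ * x * c₀⁻¹, c₀ * l * c₀⁻¹⁆ := by simp [commutatorElement_def, mul_assoc]
        _ = ⁅x' * d, l⁆ := by rw [hcl, hxd]
        _ = ⁅x', l⁆ := by rw [comm_mul_left, commute_comm_one hdl, mul_one, mul_inv_cancel, one_mul]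
    have h1 := comm_mem_Zc hs'.syl_left hx (hLF hl)
    have h2 := comm_mem_Zc hs'.syl_left hx' (hLF hl)
    rw [← e] at h2
    have hgen' := c.opp_cj hs'.syl_right hEb hopp (inv_mem (hB.1 hc₀)) (fun h' => hc₀Q (inv_mem_iff.1 h'))
    refine Subgroup.mem_centralizer_iff.2 fun s hs'' => Subgroup.mem_centralizer_singleton_iff.1 ?_
    refine (?_ : c.Gx (P 1) ≤ Subgroup.centralizer ({⁅x, l⁆} : Set Γ)) hs''
    rw [← hgen']
    refine sup_le (fun t ht => Subgroup.mem_centralizer_singleton_iff.2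
      (Subgroup.mem_centralizer_iff.1 h1.2 t ht)) (fun t ht => Subgroup.mem_centralizer_singleton_iff.2 ?_)
    rw [mem_cj, inv_inv] at ht
    have h3 := Subgroup.mem_centralizer_iff.1 h2.2 _ ht
    calc t * ⁅x, l⁆ = c₀⁻¹ * (c₀ * t * c₀⁻¹ * (c₀ * ⁅x, l⁆ * c₀⁻¹)) * c₀ := by group
      _ = c₀⁻¹ * (c₀ * ⁅x, l⁆ * c₀⁻¹ * (c₀ * t * c₀⁻¹)) * c₀ := by rw [h3]
      _ = _ := by group
  rw [← hk.commutator_eq hc, ← cj_le_cj g, cj_commutator, cj_Cx_eq hg, ← Vx_act]
  exact hgen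

/-- If a moved second module commutes with the last but one, the first two modules generate a normal
subgroup of the first vertex group. -/
theorem sup_normal (hk : c.IsB k) (hc : c.IsCrit k P E) {h : Γ} (hh : h ∈ c.Gx (P 0))
    (hopp : cj h (E 0) ⊔ E 0 = c.Gx (P 0)) (hcomm : c.Vx (c.act h (P 1)) ≤ c.Qx (P (k - 1))) :
    c.Gx (P 0) ≤ Subgroup.normalizer ((c.Vx (P 0) ⊔ c.Vx (P 1) : Subgroup Γ) : Set Γ) := by
  have hpos := hk.pos
  have hs0 := hc.1 0 (by omega)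
  set μ := c.act h (P 1) with hμ
  set W := c.Vx (P 0) ⊔ c.Vx μ with hW
  have hlast := hc.1 (k - 1) (by omega)
  have hlastR := hlast.syl_right
  rw [show k - 1 + 1 = k by omega] at hlastR
  have hVk : c.Vx (P k) ≤ c.Gx (P 0) := (hk.le_syl hc.1).trans (c.syl_le_Gx hs0.syl_left)
  have hWcomm : ⁅W, c.Vx (P k)⁆ ≤ c.Vx (P 0) := by
    refine Subgroup.commutator_le.2 fun w hw b hb => ?_
    have hle : W ≤ c.Vx (P 0) ⊔ c.Qx (P k) := sup_le le_sup_left
      (hcomm.trans ((c.Qx_le_syl hlast.syl_left).trans_eq (hk.sup_eq' hc).symm))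
    obtain ⟨v, hv, x, hx, rfl⟩ := exists_mul_of_mem_sup
      (((hk.le_syl_last hc.1).trans (c.syl_le_Gx hlastR)).trans (c.Gx_le_normalizer_Qx _)) (hle hw)
    rw [comm_mul_left, commute_comm_one (c.commute_Vx hb hx).symm, mul_one, mul_inv_cancel, one_mul]
    exact ((hk.commutator_le_inf hc).trans inf_le_left) (Subgroup.commutator_mem_commutator hv hb)
  have hGW : c.Gx (P 0) ≤ Subgroup.normalizer (W : Set Γ) := by
    rw [← hopp]
    have hst : c.Step μ (P 0) (cj h (E 0)) := (hs0.act_right hh).symm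
    have hF1 : cj h (E 0) ≤ Subgroup.normalizer (W : Set Γ) := by
      refine le_normalizer_of_conj_le fun x hx => ?_
      rw [hW, cj_sup, cj_Vx_eq (c.syl_le_Gx (hs0.syl_left.cj_eq c hh) hx),
        cj_Vx_eq (c.syl_le_Gx hst.syl_left hx)]
    refine sup_le hF1 ((hk.sup_eq hc).ge.trans (sup_le ?_ ((c.Qx_le_syl (hs0.syl_left.cj_eq c hh)).trans hF1)))
    rw [Subgroup.le_normalizer_iff_commutator_le_left]
    exact hWcomm.trans le_sup_left
  refine hGW.trans_eq ?_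
  suffices W = c.Vx (P 0) ⊔ c.Vx (P 1) by rw [this]
  rw [← cj_eq_of_le_normalizer (hGW (inv_mem hh)), hW, cj_sup, hμ, c.Vx_act, cj_inv_cj,
    cj_Vx_eq (inv_mem hh)]

end IsB

end Conf

end CfsgLib.PushPair39
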