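import Cfsg.Agent.PushPair39.Vertex
import Cfsg.Agent.CentrallyLarge.Basic

/-!
Subgroups of largest measure inside an edge group: the abelian one outside the core of an end, the quadratic
action on the module, and the absence of central commutators.
-/

set_option autoImplicit false
set_option maxHeartbeats 400000
set_option linter.unusedSectionVars false

open scoped commutatorElement Pointwise
open CfsgLib.PushingUp44 (cj mem_cj conj_mem_cj cj_one cj_cj cj_inv_cj cj_cj_inv cj_mono cj_le_cj cj_sup cj_inf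
  cj_commutator cj_centralizer relIndex_cj cj_eq_of_le_normalizer cj_normalizer le_normalizer_of_conj_le
  commute_of_le_centralizer comm_mul_left comm_mul_right commute_comm_one commute_of_comm_one
  exists_mul_of_mem_sup relIndex_pos relIndex_anti_left relIndex_mono_right eq_of_relIndex_le fixMod comm_symm_mem
  mem_fixMod_sup)
open CfsgLib.CentrallyLarge (card_mul_le_sup cen cen_sup le_cen_inf sup_eq_setMul_of_card_le)

namespace CfsgLib.PushPair39

variable {Γ : Type*} [Group Γ] [Finite Γ]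

theorem card_mul_relIndex {H K : Subgroup Γ} (h : H ≤ K) : Nat.card H * H.relIndex K = Nat.card K := by
  rw [← Subgroup.relIndex_bot_left, Subgroup.relIndex_mul_relIndex _ _ _ bot_le h, Subgroup.relIndex_bot_left]

theorem card_mul_relIndex' (H K : Subgroup Γ) : Nat.card (H ⊓ K : Subgroup Γ) * H.relIndex K = Nat.card K := by
  rw [← Subgroup.inf_relIndex_right, card_mul_relIndex inf_le_right]

/-- If the index of `C ⊓ Y` in `Y` is at least that of `C` in `X ⊇ Y`, then `X = Y C`. -/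
theorem exists_mul_of_le_relIndex {C Y X : Subgroup Γ} (hC : C ≤ X) (hY : Y ≤ X)
    (hle : C.relIndex X ≤ C.relIndex Y) {x : Γ} (hx : x ∈ X) : ∃ y ∈ Y, ∃ z ∈ C, y * z = x := by
  have h1 := CfsgLib.CentrallyLarge.card_setMul_mul_card_inf Y C
  have h2 := card_mul_relIndex' C Y
  have h3 := card_mul_relIndex hC
  rw [inf_comm] at h2
  have h4 : Nat.card X * Nat.card (Y ⊓ C : Subgroup Γ) ≤
      Nat.card ↥((Y : Set Γ) * (C : Set Γ)) * Nat.card (Y ⊓ C : Subgroup Γ) := by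
    rw [h1, ← h2, ← h3]
    nlinarith [Nat.mul_le_mul_left (Nat.card C * Nat.card (Y ⊓ C : Subgroup Γ)) hle]
  have hsub : (Y : Set Γ) * (C : Set Γ) ⊆ (X : Set Γ) := by
    rintro _ ⟨a, ha, b, hb, rfl⟩
    exact mul_mem (hY ha) (hC hb)
  have h5 := Nat.le_of_mul_le_mul_right h4 Nat.card_pos
  rw [Nat.card_coe_set_eq, show Nat.card X = ((X : Subgroup Γ) : Set Γ).ncard from Nat.card_coe_set_eq _] at h5
  have h6 := Set.eq_of_subset_of_ncard_le hsub h5 (Set.toFinite _)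
  have hx' : x ∈ (Y : Set Γ) * (C : Set Γ) := h6 ▸ hx
  obtain ⟨y, hy, z, hz, rfl⟩ := hx'
  exact ⟨y, hy, z, hz, rfl⟩

namespace Conf

variable {ι : Type*} {c : Conf Γ ι}

/-- `X` has the largest measure in the edge group `E`. -/
def IsMem (c : Conf Γ ι) (E X : Subgroup Γ) : Prop :=
  X ≤ E ∧ Nat.card X * Nat.card (E ⊓ cen X : Subgroup Γ) = c.f

variable {v : c.Vtx} {E : Subgroup Γ} (h : c.Syl v E)

include h in
theorem edge_f_le {X : Subgroup Γ} (hX : X ≤ E) :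
    Nat.card X * Nat.card (E ⊓ cen X : Subgroup Γ) ≤ c.f := by
  obtain ⟨g, hg, rfl⟩ := h
  have hc : ∀ H : Subgroup Γ, Nat.card (cj g H) = Nat.card H := fun H =>
    Subgroup.card_map_of_injective (f := (MulAut.conj g).toMonoidHom) (MulAut.conj g).injective
  have h1 := c.f_le (cj g⁻¹ X) (by rw [← cj_le_cj g, cj_cj_inv]; exact hX)
  rw [← hc (cj g⁻¹ X), cj_cj_inv, ← hc (c.S ⊓ _), cj_inf, cj_centralizer, cj_cj_inv] at h1
  exact h1

include h in
/-- The subgroups of largest measure form a lattice. -/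
theorem IsMem.lattice {H K : Subgroup Γ} (hH : c.IsMem E H) (hK : c.IsMem E K) :
    c.IsMem E (H ⊔ K) ∧ c.IsMem E (H ⊓ K) ∧ E ⊓ cen (H ⊓ K) = (E ⊓ cen H) ⊔ (E ⊓ cen K) := by
  set cH := E ⊓ cen H with hcH
  set cK := E ⊓ cen K with hcK
  have hJ : E ⊓ cen (H ⊔ K) = cH ⊓ cK := by
    rw [cen_sup, hcH, hcK, inf_inf_distrib_left]
  have hsub : cH ⊔ cK ≤ E ⊓ cen (H ⊓ K) := sup_le (inf_le_inf_left _ (Subgroup.centralizer_le inf_le_left))
    (inf_le_inf_left _ (Subgroup.centralizer_le inf_le_right))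
  have h1 := edge_f_le h (sup_le hH.1 hK.1)
  have h2 := edge_f_le h (inf_le_left.trans hH.1 : H ⊓ K ≤ E)
  have h3 : c.f * c.f ≤ (Nat.card (H ⊔ K : Subgroup Γ) * Nat.card (E ⊓ cen (H ⊔ K) : Subgroup Γ)) *
      (Nat.card (H ⊓ K : Subgroup Γ) * Nat.card (cH ⊔ cK : Subgroup Γ)) := by
    rw [hJ]
    calc c.f * c.f = (Nat.card H * Nat.card cH) * (Nat.card K * Nat.card cK) := by rw [hH.2, hK.2]
      _ = (Nat.card H * Nat.card K) * (Nat.card cH * Nat.card cK) := by ring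
      _ ≤ (Nat.card (H ⊔ K : Subgroup Γ) * Nat.card (H ⊓ K : Subgroup Γ)) *
          (Nat.card (cH ⊔ cK : Subgroup Γ) * Nat.card (cH ⊓ cK : Subgroup Γ)) :=
        Nat.mul_le_mul (card_mul_le_sup _ _) (card_mul_le_sup _ _)
      _ = _ := by ring
  have h4 : Nat.card (H ⊓ K : Subgroup Γ) * Nat.card (cH ⊔ cK : Subgroup Γ) ≤ c.f :=
    (Nat.mul_le_mul_left _ (Subgroup.card_le_of_le hsub)).trans h2
  have hf : 0 < c.f := by rw [← hH.2]; exact Nat.mul_pos Nat.card_pos Nat.card_pos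
  have e1 := le_antisymm h1 (Nat.le_of_mul_le_mul_right (h3.trans (Nat.mul_le_mul_left _ h4)) hf)
  have e2 := le_antisymm h4 (Nat.le_of_mul_le_mul_left (h3.trans (Nat.mul_le_mul_right _ h1)) hf)
  have e3 : cH ⊔ cK = E ⊓ cen (H ⊓ K) := Subgroup.eq_of_le_of_card_ge hsub
    (Nat.le_of_mul_le_mul_left (h2.trans e2.ge) Nat.card_pos)
  exact ⟨⟨sup_le hH.1 hK.1, e1⟩, ⟨inf_le_left.trans hH.1, e3 ▸ e2⟩, e3.symm⟩

/-- An abelian subgroup of the edge group of largest order outside the core. -/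
def IsOff (v : c.Vtx) (E A : Subgroup Γ) : Prop :=
  A ≤ E ∧ A ≤ cen A ∧ Nat.card A * Nat.card A = c.f ∧ ¬ A ≤ c.Qx v

include h in
theorem exists_off : ∃ A, IsOff v E A := by
  obtain ⟨g, hg, rfl⟩ := h
  obtain ⟨A, hAS, hab, hcard, hAQ⟩ := c.exists_A v.1
  have hc : Nat.card (cj g A) = Nat.card A :=
    Subgroup.card_map_of_injective (f := (MulAut.conj g).toMonoidHom) (MulAut.conj g).injective
  refine ⟨cj g A, cj_mono _ hAS, ?_, by rw [hc]; exact hcard, ?_⟩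
  · rw [cen, ← cj_centralizer, cj_le_cj]; exact hab
  · rw [c.Qx_eq hg, cj_le_cj]; exact hAQ

namespace IsOff

variable {A : Subgroup Γ} (hA : IsOff v E A)
include h hA

theorem cen_eq : E ⊓ cen A = A := by
  refine (Subgroup.eq_of_le_of_card_ge (le_inf hA.1 hA.2.1) ?_).symm
  have h1 := edge_f_le h hA.1
  rw [← hA.2.2.1] at h1
  exact Nat.le_of_mul_le_mul_left h1 Nat.card_pos

theorem isMem : c.IsMem E A := ⟨hA.1, by rw [hA.cen_eq h]; exact hA.2.2.1⟩

theorem numbers : (c.Qx v).relIndex A = c.q v.1 ∧ (c.Qx v).relIndex E = c.q v.1 ∧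
    A ⊓ c.Vx v = Zc E ∧ (Zc E).relIndex (c.Vx v) = c.q v.1 ∧ c.IsMem E ((A ⊓ c.Qx v) ⊔ c.Vx v) ∧
    E ⊓ cen ((A ⊓ c.Qx v) ⊔ c.Vx v) = (A ⊓ c.Qx v) ⊔ c.Vx v ∧ (∀ x ∈ E, ∃ a ∈ A, ∃ y ∈ c.Qx v, a * y = x) := by
  set Q := c.Qx v with hQ
  set V := c.Vx v with hV
  set L := A ⊓ Q with hL
  set B := L ⊔ V with hB
  have hQE : Q ≤ E := c.Qx_le_syl h
  have hBE : B ≤ E := sup_le (inf_le_left.trans hA.1) (c.Vx_le_syl h)
  have hBab : B ≤ cen B := by
    have hLV : L ≤ cen V := inf_le_right.trans (c.Qx_le_centralizer v)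
    rw [hB, cen_sup]
    exact sup_le (le_inf ((inf_le_left.trans hA.2.1).trans (Subgroup.centralizer_le inf_le_left)) hLV)
      (le_inf (Subgroup.le_centralizer_iff.1 hLV) (c.Vx_comm v))
  have hBA : Nat.card B ≤ Nat.card A := by
    have h1 := edge_f_le h hBE
    rw [← hA.2.2.1] at h1
    have h2 := (Nat.mul_le_mul_left (Nat.card B) (Subgroup.card_le_of_le (le_inf hBE hBab))).trans h1
    exact Nat.mul_self_le_mul_self_iff.1 h2
  obtain ⟨a, haA, haQ⟩ := SetLike.not_le_iff_exists.1 hA.2.2.2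
  have hLa : L ⊓ V ≤ V ⊓ Subgroup.centralizer ({a} : Set Γ) := fun x hx => ⟨hx.2,
    Subgroup.mem_centralizer_singleton_iff.2 (Subgroup.mem_centralizer_iff.1 (hA.2.1 hx.1.1) a haA).symm⟩
  have hqV : c.q v.1 ≤ (L ⊓ V).relIndex V := (c.syl_bound h (hA.1 haA) haQ).trans (relIndex_anti_left hLa _)
  have hqA : Q.relIndex A ≤ c.q v.1 := (relIndex_mono_right _ hA.1).trans (c.syl_card h)
  have hcA : Nat.card L * Q.relIndex A = Nat.card A := by rw [hL, inf_comm]; exact card_mul_relIndex' Q A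
  have hcV := card_mul_relIndex (inf_le_right : L ⊓ V ≤ V)
  have hsup := card_mul_le_sup L V
  have hkey : Nat.card L * (L ⊓ V).relIndex V ≤ Nat.card B := by
    refine Nat.le_of_mul_le_mul_right (c := Nat.card (L ⊓ V : Subgroup Γ)) ?_ Nat.card_pos
    calc _ = Nat.card L * (Nat.card (L ⊓ V : Subgroup Γ) * (L ⊓ V).relIndex V) := by ring
      _ = Nat.card L * Nat.card V := by rw [hcV]
      _ ≤ _ := hsup
  have hLpos : 0 < Nat.card L := Nat.card_pos
  have e1 : Q.relIndex A = c.q v.1 := le_antisymm hqA (Nat.le_of_mul_le_mul_left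
    (((Nat.mul_le_mul_left _ hqV).trans hkey).trans (hBA.trans hcA.ge)) hLpos)
  have e2 : (L ⊓ V).relIndex V = c.q v.1 := le_antisymm (Nat.le_of_mul_le_mul_left
    (hkey.trans (hBA.trans (hcA.ge.trans_eq (by rw [e1])))) hLpos) hqV
  have hBcard : Nat.card B = Nat.card A := le_antisymm hBA (by rw [← hcA, e1, ← e2]; exact hkey)
  have eE : Q.relIndex E = c.q v.1 :=
    le_antisymm (c.syl_card h) (e1.ge.trans (relIndex_mono_right _ hA.1))
  have hprod : ∀ x ∈ E, ∃ a ∈ A, ∃ y ∈ Q, a * y = x := fun x hx =>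
    exists_mul_of_le_relIndex hQE hA.1 (by rw [e1, eE]) hx
  have hZ : L ⊓ V = Zc E := by
    refine le_antisymm ?_ ?_
    · refine fun x hx => ⟨c.Vx_le_syl h hx.2, Subgroup.mem_centralizer_iff.2 fun y hy => ?_⟩
      obtain ⟨a', ha', y', hy', rfl⟩ := hprod y hy
      exact ((commute_of_le_centralizer hA.2.1 ha' hx.1.1).mul_left (c.commute_Vx hx.2 hy').symm).eq
    · intro x hx
      refine ⟨⟨?_, c.Vx_le_Qx v (c.Zc_le_Vx h hx)⟩, c.Zc_le_Vx h hx⟩
      rw [← hA.cen_eq h]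
      exact ⟨hx.1, Subgroup.centralizer_le (SetLike.coe_subset_coe.2 hA.1) hx.2⟩
  have hBmem : c.IsMem E B := by
    refine ⟨hBE, le_antisymm (edge_f_le h hBE) ?_⟩
    rw [← hA.2.2.1, ← hBcard]
    exact Nat.mul_le_mul_left _ (Subgroup.card_le_of_le (le_inf hBE hBab))
  refine ⟨e1, eE, ?_, hZ ▸ e2, hBmem, ?_, hprod⟩
  · rw [← hZ, hL, inf_assoc, inf_eq_right.2 (c.Vx_le_Qx v)]
  · refine (Subgroup.eq_of_le_of_card_ge (le_inf hBE hBab) ?_).symm
    have h1 := hBmem.2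
    rw [← hA.2.2.1, hBcard] at h1
    exact (Nat.eq_of_mul_eq_mul_left Nat.card_pos (h1.trans (by rw [hBcard]))).le

/-- The intersection with the core has largest measure, with centralizer `A V`. -/
theorem inf_core : c.IsMem E (A ⊓ c.Qx v) ∧ E ⊓ cen (A ⊓ c.Qx v) = A ⊔ c.Vx v ∧
    (A ⊔ c.Vx v) ⊓ c.Qx v = (A ⊓ c.Qx v) ⊔ c.Vx v := by
  obtain ⟨-, -, -, -, hBmem, hBcen, -⟩ := hA.numbers h
  set L := A ⊓ c.Qx v with hL
  have hI : A ⊓ (L ⊔ c.Vx v) = L := le_antisymm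
    (le_inf inf_le_left (inf_le_right.trans (sup_le inf_le_right (c.Vx_le_Qx v))))
    (le_inf inf_le_left le_sup_left)
  obtain ⟨-, h2, h3⟩ := IsMem.lattice h (hA.isMem h) hBmem
  rw [hI] at h2 h3
  rw [hA.cen_eq h, hBcen, ← sup_assoc, sup_eq_left.2 (inf_le_left : L ≤ A)] at h3
  refine ⟨h2, h3, le_antisymm (fun x hx => ?_) (sup_le (le_inf (inf_le_left.trans le_sup_left) inf_le_right)
    (le_inf le_sup_right (c.Vx_le_Qx v)))⟩
  obtain ⟨a, ha, u, hu, rfl⟩ := exists_mul_of_mem_sup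
    ((hA.1.trans (c.syl_le_Gx h)).trans (c.Gx_le_normalizer_Vx v)) hx.1
  refine Subgroup.mul_mem_sup ⟨ha, ?_⟩ hu
  simpa using (c.Qx v).mul_mem hx.2 ((c.Qx v).inv_mem (c.Vx_le_Qx v hu))

end IsOff

include h

theorem relIndex_core : (c.Qx v).relIndex E = c.q v.1 := by
  obtain ⟨A, hA⟩ := exists_off h; exact (hA.numbers h).2.1

theorem relIndex_Zc : (Zc E).relIndex (c.Vx v) = c.q v.1 := by
  obtain ⟨A, hA⟩ := exists_off h; exact (hA.numbers h).2.2.2.1

theorem centralizer_singleton_eq {a : Γ} (ha : a ∈ E) (haQ : a ∉ c.Qx v) :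
    c.Vx v ⊓ Subgroup.centralizer ({a} : Set Γ) = Zc E := by
  have hle : Zc E ≤ c.Vx v ⊓ Subgroup.centralizer ({a} : Set Γ) := fun x hx =>
    ⟨c.Zc_le_Vx h hx, Subgroup.mem_centralizer_singleton_iff.2 (Subgroup.mem_centralizer_iff.1 hx.2 a ha).symm⟩
  exact (eq_of_relIndex_le hle inf_le_left ((relIndex_Zc h).le.trans (c.syl_bound h ha haQ))).symm

theorem mem_Zc_of_commute {a u : Γ} (ha : a ∈ E) (haQ : a ∉ c.Qx v) (hu : u ∈ c.Vx v) (hc : Commute u a) :
    u ∈ Zc E :=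
  (centralizer_singleton_eq h ha haQ).le ⟨hu, Subgroup.mem_centralizer_singleton_iff.2 hc.eq⟩

/-- The edge group acts quadratically on the module. -/
theorem comm_mem_Zc {u s : Γ} (hu : u ∈ c.Vx v) (hs : s ∈ E) : ⁅u, s⁆ ∈ Zc E := by
  obtain ⟨A, hA⟩ := exists_off h
  obtain ⟨-, -, hAV, -, -, -, hprod⟩ := hA.numbers h
  obtain ⟨hLmem, hLcen, -⟩ := hA.inf_core h
  have hG : ∀ a ∈ E, a ∈ Subgroup.normalizer (c.Vx v : Set Γ) := fun a ha =>
    c.Gx_le_normalizer_Vx v (c.syl_le_Gx h ha)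
  have hcj : ∀ {a x : Γ}, a ∈ E → x ∈ c.Vx v → a * x * a⁻¹ ∈ c.Vx v := fun ha hx =>
    (Subgroup.mem_normalizer_iff.1 (hG _ ha) _).1 hx
  suffices key : ∀ a ∈ A, ⁅a, u⁆ ∈ Zc E by
    obtain ⟨a, ha, y, hy, rfl⟩ := hprod s hs
    refine comm_symm_mem ?_
    rw [comm_mul_left, commute_comm_one (c.commute_Vx hu hy).symm, mul_one, mul_inv_cancel, one_mul]
    exact key a ha
  have huE : u ∈ E := c.Vx_le_syl h hu
  have hcom : ∀ {z : Γ}, z ∈ Zc E → ∀ {a : Γ}, a ∈ E → Commute a z := fun hz _ ha =>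
    Subgroup.mem_centralizer_iff.1 hz.2 _ ha
  by_cases hx : ∃ x ∈ A, u⁻¹ * x * u ∈ A ∧ x ∉ c.Qx v
  · obtain ⟨x, hxA, hxA', hxQ⟩ := hx
    have hz1 : u⁻¹ * x * u * x⁻¹ ∈ Zc E := by
      rw [← hAV]
      refine ⟨A.mul_mem hxA' (A.inv_mem hxA), ?_⟩
      rw [show u⁻¹ * x * u * x⁻¹ = u⁻¹ * (x * u * x⁻¹) by group]
      exact (c.Vx v).mul_mem ((c.Vx v).inv_mem hu) (hcj (hA.1 hxA) hu)
    intro a ha
    set z := u⁻¹ * x * u * x⁻¹ with hz
    have hw : ⁅a, u⁆ ∈ c.Vx v := by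
      rw [commutatorElement_def]
      exact mul_mem (hcj (hA.1 ha) hu) (inv_mem hu)
    refine mem_Zc_of_commute h (hA.1 hxA) hxQ hw (Commute.symm ?_)
    have e0 : x * u * x⁻¹ = u * z := by rw [hz]; group
    have e1 : x * a * x⁻¹ = a := by
      rw [(commute_of_le_centralizer hA.2.1 hxA ha).eq, mul_inv_cancel_right]
    have e : x * ⁅a, u⁆ * x⁻¹ = ⁅a, u⁆ := by
      calc x * ⁅a, u⁆ * x⁻¹ = ⁅x * a * x⁻¹, x * u * x⁻¹⁆ := by simp [commutatorElement_def, mul_assoc]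
        _ = ⁅a, u⁆ := by
          rw [e0, e1, comm_mul_right, commute_comm_one (hcom hz1 (hA.1 ha)), mul_one, mul_inv_cancel, mul_one]
    exact mul_inv_eq_iff_eq_mul.1 e
  · push Not at hx
    intro a ha
    suffices huZ : u ∈ Zc E by rw [commute_comm_one (hcom huZ (hA.1 ha))]; exact one_mem _
    set A' := cj u A with hA'
    have hcard : Nat.card A' = Nat.card A :=
      Subgroup.card_map_of_injective (f := (MulAut.conj u).toMonoidHom) (MulAut.conj u).injective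
    have hA'E : A' ≤ E := (cj_mono u hA.1).trans_eq (cj_eq_of_le_normalizer (Subgroup.le_normalizer huE))
    have hA'cen : E ⊓ cen A' = A' := by
      conv_lhs => rw [hA', cen, ← cj_centralizer, ← cj_eq_of_le_normalizer (Subgroup.le_normalizer huE), ← cj_inf]
      rw [show E ⊓ Subgroup.centralizer (A : Set Γ) = A from hA.cen_eq h]
    have hA'mem : c.IsMem E A' := ⟨hA'E, by rw [hA'cen, hcard]; exact hA.2.2.1⟩
    have hI : A ⊓ A' = A ⊓ c.Qx v := by
      refine le_antisymm (fun y hy => ⟨hy.1, hx y hy.1 (mem_cj.1 hy.2)⟩) (fun y hy => ⟨hy.1, mem_cj.2 ?_⟩)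
      rw [mul_assoc, (c.commute_Vx hu hy.2).symm.eq, inv_mul_cancel_left]
      exact hy.1
    obtain ⟨-, -, h3⟩ := IsMem.lattice h (hA.isMem h) hA'mem
    rw [hI, hLcen, hA.cen_eq h, hA'cen] at h3
    have hprod2 : ((A ⊔ A' : Subgroup Γ) : Set Γ) = (A : Set Γ) * (A' : Set Γ) := by
      refine sup_eq_setMul_of_card_le A A' ?_
      rw [hI, ← h3, hcard, hA.2.2.1, mul_comm, ← hLmem.2, hLcen]
    have humem : u ∈ ((A ⊔ A' : Subgroup Γ) : Set Γ) := h3.le (Subgroup.mem_sup_right hu)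
    rw [hprod2] at humem
    obtain ⟨b, hb, _, ⟨d, hd, rfl⟩, e⟩ := humem
    have e' : b * (u * d * u⁻¹) = u := e
    have hbd : b * d ∈ Zc E := by
      rw [← hAV]
      refine ⟨mul_mem hb hd, ?_⟩
      have hd' : d⁻¹ * u⁻¹ * d ∈ c.Vx v := by simpa using hcj (inv_mem (hA.1 hd)) (inv_mem hu)
      rw [show b * d = b * (u * d * u⁻¹) * u * (d⁻¹ * u⁻¹ * d) by group, e']
      exact mul_mem (mul_mem hu hu) hd'
    -- `b u b⁻¹ = u ^ 2` up to the centre
    have hbu : b * u * b⁻¹ * (b * d) = u * u := by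
      calc b * u * b⁻¹ * (b * d) = b * (u * d * u⁻¹) * u := by group
        _ = _ := by rw [e']
    have hit : ∀ j : ℕ, ∃ z ∈ Zc E, b ^ j * u * (b ^ j)⁻¹ = u ^ (2 ^ j) * z := by
      intro j
      induction j with
      | zero => exact ⟨1, one_mem _, by simp⟩
      | succ j ih =>
        obtain ⟨z, hz, ez⟩ := ih
        refine ⟨((b * d)⁻¹) ^ (2 ^ j) * z, mul_mem (pow_mem (inv_mem hbd) _) hz, ?_⟩
        have e1 : b * z * b⁻¹ = z := by rw [(hcom hz (hA.1 hb)).eq, mul_inv_cancel_right]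
        have e2 : b * u * b⁻¹ = u * u * (b * d)⁻¹ := by rw [← hbu]; group
        have hc2 : Commute (u * u) (b * d)⁻¹ := (hcom hbd (mul_mem huE huE)).inv_right
        calc b ^ (j + 1) * u * (b ^ (j + 1))⁻¹ = b * (b ^ j * u * (b ^ j)⁻¹) * b⁻¹ := by
              rw [pow_succ']; group
          _ = (b * u * b⁻¹) ^ (2 ^ j) * (b * z * b⁻¹) := by rw [ez, conj_pow]; group
          _ = u ^ (2 ^ (j + 1)) * (((b * d)⁻¹) ^ (2 ^ j) * z) := by
              rw [e1, e2, hc2.mul_pow, ← sq u, ← pow_mul, ← pow_succ']; group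
    obtain ⟨k, hk⟩ : ∃ k, b ^ c.p ^ k = 1 := by
      obtain ⟨g, hg, rfl⟩ := h
      obtain ⟨k, hk⟩ := c.isP ⟨_, mem_cj.1 (hA.1 hb)⟩
      refine ⟨k, ?_⟩
      have h2 : (g⁻¹ * b * g) ^ c.p ^ k = 1 := congrArg Subtype.val hk
      rwa [show g⁻¹ * b * g = g⁻¹ * b * g⁻¹⁻¹ by rw [inv_inv], conj_pow, inv_inv, mul_assoc,
        inv_mul_eq_one, eq_comm, mul_eq_right] at h2
    haveI : Fact c.p.Prime := ⟨c.prime⟩
    obtain ⟨z, hz, ez⟩ := hit (c.p ^ k)
    rw [hk, one_mul, inv_one, mul_one] at ez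
    have hmod : 2 ^ (c.p ^ k) ≡ 2 [MOD c.p] := by
      rw [← ZMod.natCast_eq_natCast_iff]; push_cast; exact ZMod.pow_card_pow (2 : ZMod c.p)
    rw [pow_eq_pow_mod _ (c.Vx_elem hu), hmod, ← pow_eq_pow_mod _ (c.Vx_elem hu), sq, mul_assoc] at ez
    have : u * z = 1 := mul_eq_left.1 ez.symm
    rw [eq_inv_of_mul_eq_one_left this]
    exact inv_mem hz

/-- No nontrivial commutator of a module element with an edge element is central at the vertex. -/
theorem comm_eq_one_of_central {u e : Γ} (hu : u ∈ c.Vx v) (he : e ∈ E) (hc : ⁅u, e⁆ ∈ c.Cx v) :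
    ⁅u, e⁆ = 1 := by
  by_cases heQ : e ∈ c.Qx v
  · exact commute_comm_one (c.commute_Vx hu heQ)
  obtain ⟨x, hx, hopp⟩ := exists_opp_elem h
  have hE' : c.Syl v (cj x E) := Syl.cj_eq c h hx
  set U := Zc E ⊔ Zc (cj x E) with hU
  have hUV : U ≤ c.Vx v := sup_le (c.Zc_le_Vx h) (c.Zc_le_Vx hE')
  have hnor : ∀ F : Subgroup Γ, c.Syl v F → Zc F ≤ U → F ≤ Subgroup.normalizer (U : Set Γ) := by
    intro F hF hFU
    rw [Subgroup.le_normalizer_iff_commutator_le_left, Subgroup.commutator_le]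
    exact fun z hz s hs => hFU (comm_mem_Zc hF (hUV hz) hs)
  have hV : c.Vx v ≤ U := Syl.gen_V h (by
    rw [← hopp]
    exact sup_le (hnor _ hE' le_sup_right) (hnor _ h le_sup_left)) le_sup_left
  obtain ⟨z, hz, w, hw, rfl⟩ := exists_mul_of_mem_sup (by
    refine le_trans ((c.Zc_le_Vx h).trans (c.Vx_comm v)) ?_
    exact (Subgroup.centralizer_le (SetLike.coe_subset_coe.2 (c.Zc_le_Vx hE'))).trans
      (Subgroup.centralizer_le_normalizer _)) (hV hu)
  have hze : Commute z e := (Subgroup.mem_centralizer_iff.1 hz.2 e he).symm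
  have hzw : Commute z ⁅w, e⁆ := commute_of_le_centralizer (c.Vx_comm v) (c.Zc_le_Vx h hz)
    (c.Zc_le_Vx h (comm_mem_Zc h (c.Zc_le_Vx hE' hw) he))
  rw [comm_mul_left, commute_comm_one hze, mul_one, hzw.eq, mul_inv_cancel_right] at hc ⊢
  set K := fixMod ⊤ (c.Cx v) ({w} : Set Γ) with hK
  have hnC : ∀ g ∈ c.Gx v, g ∈ Subgroup.normalizer (c.Cx v : Set Γ) := fun g hg => by
    refine CfsgLib.PushingUp44.mem_normalizer_of_cj_eq ?_
    rw [Cx, cj_centralizer, cj_Gx_eq hg]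
  have hGK : c.Gx v ≤ K := by
    rw [← c.sup_zpowers hE' h hopp he heQ]
    refine sup_le (fun s hs => ⟨trivial, hnC s (c.syl_le_Gx hE' hs), fun y hy => ?_⟩)
      (Subgroup.zpowers_le.2 ⟨trivial, hnC e (c.syl_le_Gx h he), fun y hy => ?_⟩)
    · rw [Set.mem_singleton_iff.1 hy, commute_comm_one (Subgroup.mem_centralizer_iff.1 hw.2 s hs)]
      exact one_mem _
    · rw [Set.mem_singleton_iff.1 hy]
      exact comm_symm_mem hc
  have hxi : x⁻¹ ∈ c.Gx v := inv_mem hx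
  have he' : x * e * x⁻¹ ∈ cj x E := conj_mem_cj he
  have hd : ⁅x, w⁆ ∈ c.Cx v := (hGK hx).2.2 w rfl
  have hcx : ∀ {d g : Γ}, d ∈ c.Cx v → g ∈ c.Gx v → Commute g d := fun hd hg =>
    Subgroup.mem_centralizer_iff.1 hd _ hg
  have e1 : x * w * x⁻¹ = ⁅x, w⁆ * w := by rw [commutatorElement_def]; group
  have e2 : ⁅x * w * x⁻¹, x * e * x⁻¹⁆ = ⁅w, e⁆ := by
    rw [show ⁅x * w * x⁻¹, x * e * x⁻¹⁆ = x * ⁅w, e⁆ * x⁻¹ by simp [commutatorElement_def, mul_assoc],
      (hcx hc hx).eq, mul_inv_cancel_right]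
  have hG' : x * e * x⁻¹ ∈ c.Gx v := c.syl_le_Gx hE' he'
  have e3 : ⁅w, x * e * x⁻¹⁆ = 1 :=
    commute_comm_one (Subgroup.mem_centralizer_iff.1 hw.2 _ he').symm
  rw [← e2, e1, comm_mul_left, e3, mul_one, mul_inv_cancel, one_mul, commute_comm_one (hcx hd hG').symm]

/-- A point of a normal subgroup centralised by an element outside the core that is central in the edge
group is central at the vertex. -/
theorem central_of_centralized {N : Subgroup Γ} (hN : c.Gx v ≤ Subgroup.normalizer (N : Set Γ)) {y z : Γ}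
    (hy : y ∈ E) (hyQ : y ∉ c.Qx v) (hyN : ∀ d ∈ N, Commute y d) (hz : z ∈ N) (hzE : z ∈ Zc E) :
    z ∈ c.Cx v := by
  obtain ⟨x, hx, hopp⟩ := exists_opp_elem h
  have hE' : c.Syl v (cj x E) := Syl.cj_eq c h hx
  have hyx : x * y * x⁻¹ ∈ cj x E := conj_mem_cj hy
  have hyxQ : x * y * x⁻¹ ∉ c.Qx v := fun hm => hyQ (by
    have := (Subgroup.mem_normalizer_iff.1 (c.Gx_le_normalizer_Qx v hx) y).2 hm
    exact this)
  have hgen := c.sup_zpowers h hE' (by rw [sup_comm, hopp]) hyx hyxQ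
  have hle : c.Gx v ≤ Subgroup.centralizer ({z} : Set Γ) := by
    rw [← hgen]
    refine sup_le (fun s hs => Subgroup.mem_centralizer_singleton_iff.2
      (Subgroup.mem_centralizer_iff.1 hzE.2 s hs)) (Subgroup.zpowers_le.2 ?_)
    rw [Subgroup.mem_centralizer_singleton_iff]
    have hz' : x⁻¹ * z * x ∈ N := by
      have := (Subgroup.mem_normalizer_iff.1 (hN (inv_mem hx)) z).1 hz
      rwa [inv_inv] at this
    calc x * y * x⁻¹ * z = x * (y * (x⁻¹ * z * x)) * x⁻¹ := by group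
      _ = x * (x⁻¹ * z * x * y) * x⁻¹ := by rw [(hyN _ hz').eq]
      _ = _ := by group
  exact Subgroup.mem_centralizer_iff.2 fun g hg => Subgroup.mem_centralizer_singleton_iff.1 (hle hg)

/-- The module over its central part is a quadratic pair. -/
theorem secPair_module : SecPair E (c.Gx v) (c.Qx v) (c.q v.1) (c.Vx v) (c.Vx v ⊓ c.Cx v) := by
  have hnC : c.Gx v ≤ Subgroup.normalizer ((c.Vx v ⊓ c.Cx v : Subgroup Γ) : Set Γ) := by
    refine le_normalizer_of_conj_le fun g hg => ?_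
    rw [cj_inf, cj_Vx_eq hg, Cx, cj_centralizer, cj_Gx_eq hg]
  refine ⟨c.Vx_le_Qx v, c.Gx_le_normalizer_Vx v, hnC, inf_le_left, fun a ha b hb => ?_, fun a ha b hb => ?_,
    fun a ha s hs s' hs' => ?_, fun a ha hfix => ⟨ha, ?_⟩, ?_, fun hle => ?_⟩
  · rw [commute_comm_one (commute_of_le_centralizer (c.Vx_comm v) ha hb)]; exact one_mem _
  · rw [commute_comm_one (c.commute_Vx ha hb)]; exact one_mem _
  · rw [commute_comm_one (Subgroup.mem_centralizer_iff.1 (comm_mem_Zc h ha hs).2 s' hs').symm]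
    exact one_mem _
  · obtain ⟨x, hx, hopp⟩ := exists_opp_elem h
    have hkill : ∀ F, c.Syl v F → ∀ s ∈ F, Commute s a := fun F hF s hs =>
      (commute_of_comm_one (comm_eq_one_of_central hF ha hs
        (hfix s (c.syl_le_Gx hF hs)).2)).symm
    have hle : c.Gx v ≤ Subgroup.centralizer ({a} : Set Γ) := by
      rw [← hopp]
      exact sup_le (fun s hs => Subgroup.mem_centralizer_singleton_iff.2 (hkill _ (Syl.cj_eq c h hx) s hs).eq)
        (fun s hs => Subgroup.mem_centralizer_singleton_iff.2 (hkill _ h s hs).eq)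
    exact Subgroup.mem_centralizer_iff.2 fun g hg => Subgroup.mem_centralizer_singleton_iff.1 (hle hg)
  · refine le_trans (relIndex_anti_left ?_ _) (relIndex_Zc h).le
    intro z hz
    refine ⟨c.Zc_le_Vx h hz, hnC (c.syl_le_Gx h hz.1), fun s hs => ?_⟩
    rw [commute_comm_one (Subgroup.mem_centralizer_iff.1 hz.2 s hs).symm]; exact one_mem _
  · have h1 : c.Vx v ≤ Zc E := fun x hx => ⟨c.Vx_le_syl h hx,
      Subgroup.centralizer_le (SetLike.coe_subset_coe.2 (c.syl_le_Gx h)) (hle hx).2⟩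
    exact absurd (relIndex_Zc h) (by rw [Subgroup.relIndex_eq_one.2 h1]; exact (c.one_lt v.1).ne)

end Conf

end CfsgLib.PushPair39
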