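import Cfsg.Agent.PushPair39.FixedEnd

/-!
Every moved second module gives again a critical path, and paths of length at least three are never
critical.
-/

set_option autoImplicit false
set_option maxHeartbeats 400000
set_option linter.unusedSectionVars false

open scoped commutatorElement
open CfsgLib.PushingUp44 (cj mem_cj conj_mem_cj cj_cj cj_inv_cj cj_mono cj_le_cj cj_sup cj_commutator
  cj_eq_of_le_normalizer commute_of_le_centralizer commute_comm_one commute_of_comm_one)

namespace CfsgLib.PushPair39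

namespace Conf

variable {Γ : Type*} [Group Γ] {ι : Type*} {c : Conf Γ ι} [Finite Γ] {k : ℕ} {P : ℕ → c.Vtx}
  {E : ℕ → Subgroup Γ}

namespace IsB

theorem crit_of_rev (hk : c.IsB k) (hP : c.IsPath k P E) (h : ¬ c.Vx (P 0) ≤ c.Qx (P k)) :
    c.IsCrit k P E := by
  refine ⟨hP, (hk.not_commute_iff hP).1 ?_⟩
  have h2 := (hk.not_commute_iff hP.reverse).2 (by simpa using h)
  simp only [Nat.sub_self, Nat.sub_zero] at h2
  rwa [Subgroup.le_centralizer_iff]

/-- The path starting at the moved second vertex is critical. -/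
theorem moved (hk : c.IsB k) (h2 : 2 ≤ k) (hc : c.IsCrit k P E) {h : Γ} (hh : h ∈ c.Gx (P 0))
    (hopp : cj h (E 0) ⊔ E 0 = c.Gx (P 0)) :
    c.IsCrit k (pre (c.act h (P 1)) P) (pre (cj h (E 0)) E) := by
  have hs := ((hc.1 0 (by omega)).act_right hh).symm
  refine hk.crit_of_rev (fun i hi => (hc.1.cons hs) i (by omega)) fun hle => ?_
  refine Fixed.elim ⟨hk, h2, hc, hk.sup_normal hc hh hopp ?_⟩
  rwa [show k = k - 1 + 1 by omega, pre_succ, pre_zero] at hle

/-- A good critical path has length at most two. -/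
theorem false_of_good (hk : c.IsB k) (h3 : 3 ≤ k) (hc : c.IsCrit k P E)
    (hgood : E 0 ⊔ E 1 = c.Gx (P 1)) : False := by
  obtain ⟨j, rfl⟩ : ∃ j, k = j + 3 := ⟨k - 3, by omega⟩
  have hs0 := hc.1 0 (by omega)
  obtain ⟨h, hh, hopp⟩ := exists_opp_elem hs0.syl_left
  have hc' := hk.moved (by omega) hc hh hopp
  have hr := hk.reverse hc'
  have e1 := hk.commutator_eq hc'
  have a1 := hk.commutator_le_second (by omega) hc'
  have a2 := hk.commutator_le_second (by omega) hr
  have a3 := hk.commutator_le_Zc hr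
  simp only [Nat.sub_self, Nat.sub_zero, pre_zero, pre_succ, pre_one, show j + 3 - 1 = j + 2 from rfl,
    show j + 3 - 1 - 0 = j + 2 from rfl] at e1 a1 a2 a3
  rw [Subgroup.commutator_comm] at a2 a3
  obtain ⟨h', hh', hopp'⟩ := exists_opp_elem (hc.1 (j + 2) (by omega)).syl_right
  have hc2 := hk.moved (by omega) (hk.reverse hc) (h := h')
    (by simpa using hh') (by simpa using hopp')
  have hcen := hk.centralizer_eq (hk.reverse hc2)
  simp only [Nat.sub_self, Nat.sub_zero, pre_zero, pre_succ, show j + 3 - 1 = j + 2 from rfl,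
    show j + 3 - (j + 2) = 1 from by omega, show j + 2 - (j + 1) = 1 from by omega] at hcen
  set μ := c.act h' (P (j + 2)) with hμ
  have hμstep : c.Step (P (j + 3)) μ (cj h' (E (j + 2))) :=
    ((hc.1 (j + 2) (by omega)).symm).act_right hh'
  have hVb : c.Vx (P 1) ≤ Zc (E 0) := by
    intro v hv
    refine ⟨c.Vx_le_syl hs0.syl_right hv, Subgroup.mem_centralizer_iff.2 fun e he => ?_⟩
    set z := ⁅v, e⁆ with hz
    have hzE : z ∈ Zc (E 0) := comm_mem_Zc hs0.syl_right hv he
    have hzV : z ∈ c.Vx (P 1) := c.Zc_le_Vx hs0.syl_right hzE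
    have hmem : h * z * h⁻¹ ∈ ⁅c.Vx (c.act h (P 1)), c.Vx (P (j + 2))⁆ := by
      rw [← e1, Vx_act, ← cj_commutator]
      exact conj_mem_cj (Subgroup.commutator_mem_commutator hv he)
    have hcen1 := Subgroup.mem_centralizer_iff.1 (a1 hmem) h hh
    have hzz : h * z * h⁻¹ = z := by
      calc h * z * h⁻¹ = h⁻¹ * (h * (h * z * h⁻¹)) := by group
        _ = h⁻¹ * (h * z * h⁻¹ * h) := by rw [hcen1]
        _ = z := by group
    rw [hzz] at hmem
    have hz1 : z ∈ c.Cx (P 1) := by
      rcases Nat.eq_zero_or_pos j with rfl | hj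
      · simpa using a2 hmem
      · have hzW : z ∈ c.Vx (P (j + 1)) := c.Zc_le_Vx (hc.1 (j + 1) (by omega)).syl_left (by simpa using a3 hmem)
        have hn : c.Near 3 (P (j + 1)) μ := Near.cons (hc.1 (j + 1) (by omega))
          (Near.cons (hc.1 (j + 2) (by omega)) (Near.cons hμstep (near_self _)))
        have hzE1 : z ∈ Zc (E 1) := by
          rw [← hcen]
          exact ⟨hzV, Subgroup.mem_centralizer_iff.2 fun y hy =>
            (c.commute_Vx hzW (hk.small (by omega) hn hy)).symm.eq⟩
        refine Subgroup.mem_centralizer_iff.2 fun s hs => Subgroup.mem_centralizer_singleton_iff.1 ?_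
        refine (?_ : c.Gx (P 1) ≤ Subgroup.centralizer ({z} : Set Γ)) hs
        rw [← hgood]
        exact sup_le (fun t ht => Subgroup.mem_centralizer_singleton_iff.2 (Subgroup.mem_centralizer_iff.1 hzE.2 t ht))
          (fun t ht => Subgroup.mem_centralizer_singleton_iff.2 (Subgroup.mem_centralizer_iff.1 hzE1.2 t ht))
    exact (commute_of_comm_one (comm_eq_one_of_central hs0.syl_right hv he hz1)).symm.eq
  have h1 := relIndex_Zc hs0.syl_right
  rw [Subgroup.relIndex_eq_one.2 hVb] at h1
  exact (c.one_lt _).ne h1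

theorem le_two (hk : c.IsB k) (hc : c.IsCrit k P E) : k ≤ 2 := by
  by_contra hlt
  have h3 : 3 ≤ k := by omega
  obtain ⟨h, hh, hopp⟩ := exists_opp_elem (hc.1 0 (by omega)).syl_left
  exact hk.false_of_good h3 (hk.moved (by omega) hc hh hopp) (by
    simpa only [pre_zero, pre_one] using hopp)

end IsB

end Conf

end CfsgLib.PushPair39
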