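import Cfsg.Agent.PushPair39.FixedTriv

/-!
No critical path starts at a fixed end: the case of moved first modules outside the first core, and the
conclusion.
-/

set_option autoImplicit false
set_option maxHeartbeats 400000
set_option linter.unusedSectionVars false

open scoped commutatorElement
open CfsgLib.PushingUp44 (cj mem_cj conj_mem_cj cj_one cj_cj cj_inv_cj cj_cj_inv cj_mono cj_le_cj cj_sup cj_inf
  cj_commutator cj_centralizer relIndex_cj cj_eq_of_le_normalizer cj_normalizer le_normalizer_of_conj_le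
  commute_of_le_centralizer comm_mul_left comm_mul_right commute_comm_one commute_of_comm_one
  exists_mul_of_mem_sup relIndex_pos relIndex_anti_left relIndex_mono_right eq_of_relIndex_le fixMod comm_symm_mem)
open CfsgLib.CentrallyLarge (cen)

namespace CfsgLib.PushPair39

namespace Conf

variable {Γ : Type*} [Group Γ] {ι : Type*} {c : Conf Γ ι} [Finite Γ] {P : ℕ → c.Vtx} {E : ℕ → Subgroup Γ}

namespace Fixed

/-- All moved first modules outside the first core. -/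
structure Off (P : ℕ → c.Vtx) (E : ℕ → Subgroup Γ) (g : Γ) : Prop where
  fixed : c.Fixed 2 P E
  mem : g ∈ c.Gx (P 1)
  opp : cj g (E 0) ⊔ E 0 = c.Gx (P 1)
  all : ∀ g' ∈ c.Gx (P 1), cj g' (E 0) ⊔ E 0 = c.Gx (P 1) → ¬ c.Vx (c.act g' (P 0)) ≤ c.Qx (P 0)

variable {g : Γ}

namespace Off

variable (o : Off P E g)
include o

local notation "Y" => Conf.Vx c (Conf.act c g (P 0))
local notation "F" => cj g (E 0)
local notation "D" => Conf.Qx c (P 0) ⊓ Conf.Qx c (P 1)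

theorem stepF : c.Step (P 1) (c.act g (P 0)) F := o.fixed.step.symm.act_right o.mem

theorem crit' {g' : Γ} (hg' : g' ∈ c.Gx (P 1)) (hopp' : cj g' (E 0) ⊔ E 0 = c.Gx (P 1)) :
    c.IsCrit 2 (pre (P 0) (pre (P 1) fun _ => c.act g' (P 0))) (pre (E 0) fun _ => cj g' (E 0)) := by
  refine ⟨fun i hi => ?_, o.all g' hg' hopp'⟩
  rcases i with _ | _ | i
  · exact o.fixed.step
  · exact o.fixed.step.symm.act_right hg'
  · omega

theorem sup_eq : Y ⊔ c.Qx (P 0) = E 0 := by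
  simpa only [pre_zero, pre_one, pre_two] using o.fixed.isB.sup_eq (o.crit' o.mem o.opp)

theorem sup_eq' : c.Vx (P 0) ⊔ c.Qx (c.act g (P 0)) = F := by
  simpa only [pre_zero, pre_one, pre_two, show (2 : ℕ) - 1 = 1 from rfl] using o.fixed.isB.sup_eq' (o.crit' o.mem o.opp)

theorem Y_cen : Y ⊓ cen (c.Vx (P 0)) = Zc F := by
  have := o.fixed.isB.centralizer_eq (o.fixed.isB.reverse (o.crit' o.mem o.opp))
  simpa only [Nat.sub_self, Nat.sub_zero, pre_zero, pre_one, pre_two, show (2 : ℕ) - 1 = 1 from rfl] using this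

theorem Y_le_Qb : Y ≤ c.Qx (P 1) := o.fixed.isB.small (j := 1) (by omega) (Near.cons o.stepF (near_self _))

theorem Y_le : Y ≤ E 0 := le_sup_left.trans_eq o.sup_eq

theorem exists_w : ∃ w ∈ Y, w ∉ Zc F ∧ w ∉ c.Qx (P 0) := by
  obtain ⟨w, hwY, hwF⟩ := SetLike.not_le_iff_exists.1 (show ¬ Y ≤ Zc F from fun hle => by
    have h1 := relIndex_Zc o.stepF.syl_right
    rw [Subgroup.relIndex_eq_one.2 hle] at h1
    exact (c.one_lt _).ne h1)
  exact ⟨w, hwY, hwF, fun h => hwF (o.Y_cen.le ⟨hwY, c.Qx_le_centralizer _ h⟩)⟩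

theorem exists_q : ∃ q ∈ c.Qx (P 0), q ∉ c.Qx (P 1) := SetLike.not_le_iff_exists.1 fun hle => by
  have h1 : E 0 ≤ c.Qx (P 1) := fun e he => by
    obtain ⟨y, hy, q, hq, rfl⟩ := o.fixed.decomp he
    exact mul_mem (o.fixed.Vk_le_Qb hy) (hle hq)
  have h2 := relIndex_core o.fixed.sylB
  rw [Subgroup.relIndex_eq_one.2 h1] at h2
  exact (c.one_lt _).ne h2

theorem Va_le_D : c.Vx (P 0) ≤ D := le_inf (c.Vx_le_Qx _) o.fixed.Va_le_Qb

theorem dec : ∀ d ∈ D, ∃ v ∈ c.Vx (P 0), ∃ t ∈ D, (∀ y ∈ Y, Commute t y) ∧ v * t = d := by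
  intro d hd
  have hdF : d ∈ c.Vx (P 0) ⊔ c.Qx (c.act g (P 0)) := o.sup_eq'.ge (c.Qx_le_syl o.stepF.syl_left hd.2)
  obtain ⟨v, hv, t, ht, e⟩ := exists_mul_of_mem_sup
    ((le_sup_left.trans_eq o.sup_eq').trans ((c.syl_le_Gx o.stepF.syl_right).trans (c.Gx_le_normalizer_Qx _))) hdF
  refine ⟨v, hv, t, ?_, fun y hy => (c.commute_Vx hy ht).symm, e⟩
  rw [show t = v⁻¹ * d by rw [← e]; group]
  exact Subgroup.mul_mem _ (Subgroup.inv_mem _ (o.Va_le_D hv)) hd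

theorem comm_eq_one {N : Subgroup Γ} (hN : c.Gx (P 0) ≤ Subgroup.normalizer (N : Set Γ))
    (hcN : ∀ n ∈ N, ∀ y ∈ Y, Commute y n) {m y : Γ} (hm : m ∈ D) (hy : y ∈ Y) (hmem : ⁅y, m⁆ ∈ N) :
    ⁅y, m⁆ = 1 := by
  have hsymm : ∀ {v y : Γ}, ⁅y, v⁆ = 1 → ⁅v, y⁆ = 1 := fun h => by rw [← commutatorElement_inv, h, inv_one]
  obtain ⟨w, hwY, hwF, hwQ⟩ := o.exists_w
  obtain ⟨v, hv, t, -, htY, rfl⟩ := o.dec m hm
  rw [comm_mul_right, commute_comm_one (htY y hy).symm, mul_one, mul_inv_cancel, mul_one] at hmem ⊢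
  have hz : ⁅y, v⁆ ∈ Zc (E 0) := comm_symm_mem (comm_mem_Zc o.fixed.sylA hv (o.Y_le hy))
  have hCx := central_of_centralized o.fixed.sylA hN (o.Y_le hwY) hwQ (fun n hn => hcN n hn w hwY) hmem hz
  exact hsymm (o.fixed.eq_one_of_central hv (o.Y_le hy) (comm_symm_mem hCx))

theorem fr_comm : ∀ n ∈ fr c.p D, ∀ y ∈ Y, Commute y n := by
  suffices hle : fr c.p D ≤ cen Y from fun n hn y hy => Subgroup.mem_centralizer_iff.1 (hle hn) y hy
  refine le_cen_fr _ (fun a ha => ?_) (fun a ha b hb => ?_)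
  · obtain ⟨v, hv, t, ht, htY, rfl⟩ := o.dec a ha
    rw [(c.commute_Vx hv ht.1).mul_pow, c.Vx_elem hv, one_mul]
    exact Subgroup.mem_centralizer_iff.2 fun y hy => ((htY y hy).pow_left c.p).eq.symm
  · obtain ⟨v, hv, t, ht, htY, rfl⟩ := o.dec a ha
    obtain ⟨v', hv', t', ht', htY', rfl⟩ := o.dec b hb
    have h1 : Commute v (v' * t') := (c.commute_Vx hv ((o.Va_le_D hv').1)).mul_right (c.commute_Vx hv ht'.1)
    rw [comm_mul_left, commute_comm_one h1, mul_one, comm_mul_right,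
      commute_comm_one (c.commute_Vx hv' ht.1).symm, one_mul]
    have h2 : Commute v' ⁅t, t'⁆ := by
      rw [commutatorElement_def]
      exact (((c.commute_Vx hv' ht.1).mul_right (c.commute_Vx hv' ht'.1)).mul_right
        (c.commute_Vx hv' ht.1).inv_right).mul_right (c.commute_Vx hv' ht'.1).inv_right
    have h3 : Commute v ⁅t, t'⁆ := by
      rw [commutatorElement_def]
      exact (((c.commute_Vx hv ht.1).mul_right (c.commute_Vx hv ht'.1)).mul_right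
        (c.commute_Vx hv ht.1).inv_right).mul_right (c.commute_Vx hv ht'.1).inv_right
    rw [h2.eq, mul_inv_cancel_right, h3.eq, mul_inv_cancel_right]
    refine Subgroup.mem_centralizer_iff.2 fun y hy => ?_
    exact ((((htY y hy).mul_left (htY' y hy)).mul_left (htY y hy).inv_left).mul_left
      (htY' y hy).inv_left).eq.symm

theorem delta_mem : ∀ q ∈ c.Qx (P 0), ∀ y ∈ Y, ⁅q, y⁆ ∈ D := by
  intro q hq y hy
  have hnA := c.Gx_le_normalizer_Qx (P 0) (c.syl_le_Gx o.fixed.sylA (o.Y_le hy))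
  have hnB := c.Gx_le_normalizer_Qx (P 1) (c.syl_le_Gx o.fixed.sylB (c.Qx_le_syl o.fixed.sylA hq))
  refine ⟨?_, ?_⟩
  · rw [show ⁅q, y⁆ = q * (y * q⁻¹ * y⁻¹) by simp [commutatorElement_def, mul_assoc]]
    exact (c.Qx (P 0)).mul_mem hq ((Subgroup.mem_normalizer_iff.1 hnA _).1 (inv_mem hq))
  · rw [commutatorElement_def]
    exact (c.Qx (P 1)).mul_mem ((Subgroup.mem_normalizer_iff.1 hnB y).1 (o.Y_le_Qb hy)) (inv_mem (o.Y_le_Qb hy))

theorem nondeg {q₀ w : Γ} (hq₀ : q₀ ∈ c.Qx (P 0)) (hq₀b : q₀ ∉ c.Qx (P 1)) (hwY : w ∈ Y) (hwF : w ∉ Zc F) :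
    ¬ ∀ y ∈ Y, Commute ⁅q₀, w⁆ y := by
  intro hall
  set g' := g⁻¹ * q₀ * g with o.mem'
  have hq₀E := c.Qx_le_syl o.fixed.sylA hq₀
  have o.mem'G : g' ∈ c.Gx (P 1) := mul_mem (mul_mem (inv_mem o.mem) (c.syl_le_Gx o.fixed.sylB hq₀E)) o.mem
  have o.opp' : cj g' (E 0) ⊔ E 0 = c.Gx (P 1) := by
    refine CfsgLib.PushingUp44.cj_injective g ?_
    rw [cj_sup, cj_cj, cj_Gx_eq o.mem, show g * g' = q₀ * g by rw [o.mem']; group, ← cj_cj, sup_comm]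
    exact c.opp_cj o.stepF.syl_left o.fixed.sylB o.opp hq₀E hq₀b
  have hc' := o.fixed.isB.centralizer_eq (o.fixed.isB.reverse (o.crit' o.mem'G o.opp'))
  simp only [Nat.sub_self, Nat.sub_zero, pre_zero, pre_one, pre_two, show (2 : ℕ) - 1 = 1 from rfl] at hc'
  have hv : g⁻¹ * w * g ∈ c.Vx (P 0) := mem_cj.1 ((Vx_act c g (P 0)).le hwY)
  set u := g' * (g⁻¹ * w * g) * g'⁻¹ with hu
  have eu : g * u * g⁻¹ = ⁅q₀, w⁆ * w := by rw [hu, o.mem', commutatorElement_def]; group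
  have hu' : u ∈ Zc (cj g' (E 0)) := by
    rw [← hc']
    refine ⟨by rw [Vx_act]; exact conj_mem_cj hv, Subgroup.mem_centralizer_iff.2 fun m hm => ?_⟩
    have hm' : g * m * g⁻¹ ∈ Y := (Vx_act c g (P 0)).ge (conj_mem_cj hm)
    have h1 : Commute (g * m * g⁻¹) (⁅q₀, w⁆ * w) :=
      (hall _ hm').symm.mul_right (commute_of_le_centralizer (c.Vx_comm _) hm' hwY)
    rw [← eu] at h1
    calc m * u = g⁻¹ * (g * m * g⁻¹ * (g * u * g⁻¹)) * g := by group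
      _ = g⁻¹ * (g * u * g⁻¹ * (g * m * g⁻¹)) * g := by rw [h1.eq]
      _ = _ := by group
  rw [Zc_cj, mem_cj, show g'⁻¹ * u * g' = g⁻¹ * w * g by rw [hu]; group] at hu'
  exact hwF (by rw [Zc_cj, mem_cj]; exact hu')

theorem core_comm : ∀ n ∈ ⁅c.Qx (P 0), D⁆, ∀ y ∈ Y, Commute y n := by
  have hQG : ∀ {q : Γ}, q ∈ c.Qx (P 0) → q ∈ c.Gx (P 0) := fun hq =>
    c.syl_le_Gx o.fixed.sylA (c.Qx_le_syl o.fixed.sylA hq)
  suffices hle : ⁅c.Qx (P 0), D⁆ ≤ cen Y from fun n hn y hy => Subgroup.mem_centralizer_iff.1 (hle hn) y hy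
  refine Subgroup.commutator_le.2 fun q hq d hd => Subgroup.mem_centralizer_iff.2 fun y hy => ?_
  have hm : ⁅q, d⁆ ∈ D := by
    rw [commutatorElement_def]
    exact Subgroup.mul_mem _ ((Subgroup.mem_normalizer_iff.1 (o.fixed.D_normal (hQG hq)) d).1 hd) (Subgroup.inv_mem _ hd)
  refine (commute_of_comm_one (o.comm_eq_one (normal_fr _ o.fixed.D_normal) o.fr_comm hm hy ?_)).eq
  set δ := ⁅y, q⁆ with o.delta_mem'
  have hδD : δ ∈ D := by rw [o.delta_mem', ← commutatorElement_inv]; exact Subgroup.inv_mem _ (o.delta_mem q hq y hy)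
  obtain ⟨v', hv', t', -, htY', rfl⟩ := o.dec d hd
  set ρ := ⁅y, v'⁆ with hρ
  have hρZ : ρ ∈ Zc (E 0) := comm_symm_mem (comm_mem_Zc o.fixed.sylA hv' (o.Y_le hy))
  have e1 : y * q * y⁻¹ = δ * q := by rw [o.delta_mem', commutatorElement_def]; group
  have e2 : y * (v' * t') * y⁻¹ = ρ * (v' * t') := by
    calc y * (v' * t') * y⁻¹ = y * v' * y⁻¹ * (y * t' * y⁻¹) := by group
      _ = _ := by rw [(htY' y hy).symm.eq, mul_inv_cancel_right, hρ, commutatorElement_def]; group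
  have hρc : ∀ {e : Γ}, e ∈ E 0 → Commute e ρ := fun he => Subgroup.mem_centralizer_iff.1 hρZ.2 _ he
  have e3 : y * ⁅q, v' * t'⁆ * y⁻¹ = δ * ⁅q, v' * t'⁆ * δ⁻¹ * ⁅δ, v' * t'⁆ := by
    calc y * ⁅q, v' * t'⁆ * y⁻¹ = ⁅y * q * y⁻¹, y * (v' * t') * y⁻¹⁆ := by
          simp [commutatorElement_def, mul_assoc]
      _ = ⁅δ * q, ρ * (v' * t')⁆ := by rw [e1, e2]
      _ = ⁅δ * q, v' * t'⁆ := by
        have h4 : δ * q ∈ E 0 := c.Qx_le_syl o.fixed.sylA ((c.Qx (P 0)).mul_mem hδD.1 hq)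
        rw [comm_mul_right, commute_comm_one (hρc h4), one_mul]
        have h5 : Commute ⁅δ * q, v' * t'⁆ ρ := hρc (c.Qx_le_syl o.fixed.sylA (by
          rw [commutatorElement_def]
          exact (c.Qx (P 0)).mul_mem ((c.Qx (P 0)).mul_mem ((c.Qx (P 0)).mul_mem
            ((c.Qx (P 0)).mul_mem hδD.1 hq) hd.1) ((c.Qx (P 0)).inv_mem
              ((c.Qx (P 0)).mul_mem hδD.1 hq))) ((c.Qx (P 0)).inv_mem hd.1)))
        rw [h5.symm.eq, mul_inv_cancel_right]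
      _ = _ := comm_mul_left _ _ _
  have e4 : ⁅y, ⁅q, v' * t'⁆⁆ = ⁅δ, ⁅q, v' * t'⁆⁆ *
      (⁅q, v' * t'⁆ * ⁅δ, v' * t'⁆ * ⁅q, v' * t'⁆⁻¹) := by
    calc ⁅y, ⁅q, v' * t'⁆⁆ = y * ⁅q, v' * t'⁆ * y⁻¹ * ⁅q, v' * t'⁆⁻¹ := commutatorElement_def _ _
      _ = _ := by rw [e3, commutatorElement_def δ ⁅q, v' * t'⁆]; group
  rw [e4]
  refine mul_mem (comm_mem_fr _ hδD hm) ((Subgroup.mem_normalizer_iff.1
    (normal_fr _ o.fixed.D_normal (hQG hm.1)) _).1 (comm_mem_fr _ hδD hd))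

theorem core_core_le : ∀ a ∈ c.Qx (P 0), ∀ b ∈ c.Qx (P 0), ⁅a, b⁆ ∈ D := by
  intro a ha b hb
  refine ⟨Subgroup.commutator_le_self _ (Subgroup.commutator_mem_commutator ha hb), ?_⟩
  obtain ⟨B, hB'⟩ := exists_off o.fixed.sylB
  obtain ⟨-, -, -, -, -, -, hprod⟩ := hB'.numbers o.fixed.sylB
  obtain ⟨a1, ha1, a2, ha2, rfl⟩ := hprod a (c.Qx_le_syl o.fixed.sylA ha)
  obtain ⟨b1, hb1, b2, hb2, rfl⟩ := hprod b (c.Qx_le_syl o.fixed.sylA hb)
  have hn : ∀ {e : Γ}, e ∈ E 0 → ∀ {z : Γ}, z ∈ c.Qx (P 1) → e * z * e⁻¹ ∈ c.Qx (P 1) :=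
    fun he _ hz => (Subgroup.mem_normalizer_iff.1 (c.Gx_le_normalizer_Qx _ (c.syl_le_Gx o.fixed.sylB he)) _).1 hz
  have hcQ : ∀ {e z : Γ}, e ∈ E 0 → z ∈ c.Qx (P 1) → ⁅e, z⁆ ∈ c.Qx (P 1) := fun he hz => by
    rw [commutatorElement_def]; exact mul_mem (hn he hz) (inv_mem hz)
  have hbE := c.Qx_le_syl o.fixed.sylA hb
  rw [comm_mul_left, comm_mul_right b1 b2 a1, commute_comm_one (commute_of_le_centralizer hB'.2.1 ha1 hb1),
    one_mul]
  exact mul_mem (hn (hB'.1 ha1) (comm_symm_mem (hcQ hbE ha2))) (hn (hB'.1 hb1) (hcQ (hB'.1 ha1) hb2))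

theorem core_core_comm : ∀ n ∈ ⁅c.Qx (P 0), c.Qx (P 0)⁆, ∀ y ∈ Y, Commute y n := by
  have hQG : ∀ {q : Γ}, q ∈ c.Qx (P 0) → q ∈ c.Gx (P 0) := fun hq =>
    c.syl_le_Gx o.fixed.sylA (c.Qx_le_syl o.fixed.sylA hq)
  have hN1n : c.Gx (P 0) ≤ Subgroup.normalizer ((⁅c.Qx (P 0), D⁆ : Subgroup Γ) : Set Γ) :=
    le_normalizer_of_conj_le fun s hs => by
      rw [cj_commutator, cj_Qx_eq hs, cj_eq_of_le_normalizer (o.fixed.D_normal hs)]
  suffices hle : ⁅c.Qx (P 0), c.Qx (P 0)⁆ ≤ cen Y from fun n hn y hy => Subgroup.mem_centralizer_iff.1 (hle hn) y hy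
  refine Subgroup.commutator_le.2 fun a ha b hb => Subgroup.mem_centralizer_iff.2 fun y hy => ?_
  refine (commute_of_comm_one (o.comm_eq_one hN1n o.core_comm (o.core_core_le a ha b hb) hy ?_)).eq
  set δ₁ := ⁅y, a⁆ with hδ₁
  set δ₂ := ⁅y, b⁆ with hδ₂
  have h1D : δ₁ ∈ D := by rw [hδ₁, ← commutatorElement_inv]; exact Subgroup.inv_mem _ (o.delta_mem a ha y hy)
  have h2D : δ₂ ∈ D := by rw [hδ₂, ← commutatorElement_inv]; exact Subgroup.inv_mem _ (o.delta_mem b hb y hy)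
  set m := ⁅a, b⁆ with hm
  have e : ⁅y, m⁆ = δ₁ * ⁅a, δ₂⁆ * δ₁⁻¹ * ⁅δ₁ * δ₂, m⁆ * (m * ⁅δ₁, δ₂ * b⁆ * m⁻¹) := by
    calc ⁅y, m⁆ = ⁅y * a * y⁻¹, y * b * y⁻¹⁆ * m⁻¹ := by
          rw [hm]; simp [commutatorElement_def, mul_assoc]
      _ = ⁅δ₁ * a, δ₂ * b⁆ * m⁻¹ := by rw [hδ₁, hδ₂, commutatorElement_def y a, commutatorElement_def y b]; group
      _ = _ := by rw [hm]; simp [commutatorElement_def, mul_assoc]
  rw [e]
  have hmQ := (o.core_core_le a ha b hb).1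
  refine mul_mem (mul_mem ?_ ?_) ?_
  · exact (Subgroup.mem_normalizer_iff.1 (hN1n (hQG h1D.1)) _).1 (Subgroup.commutator_mem_commutator ha h2D)
  · exact comm_symm_mem (Subgroup.commutator_mem_commutator hmQ (Subgroup.mul_mem _ h1D h2D))
  · exact (Subgroup.mem_normalizer_iff.1 (hN1n (hQG hmQ)) _).1
      (comm_symm_mem (Subgroup.commutator_mem_commutator ((c.Qx (P 0)).mul_mem h2D.1 hb) h1D))

theorem odd_case (hp : Odd c.p) {q₀ w : Γ} (hq₀ : q₀ ∈ c.Qx (P 0)) (hwY : w ∈ Y)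
    (hwQ : w ∉ c.Qx (P 0)) {v t : Γ} (hv : v ∈ c.Vx (P 0)) (ht : t ∈ D) (htY : ∀ y ∈ Y, Commute t y)
    (hvt : v * t = ⁅q₀, w⁆) : v ∈ Zc (E 0) := by
  have hwp : w ^ c.p = 1 := c.Vx_elem hwY
  have hQG : ∀ {q : Γ}, q ∈ c.Qx (P 0) → q ∈ c.Gx (P 0) := fun hq =>
    c.syl_le_Gx o.fixed.sylA (c.Qx_le_syl o.fixed.sylA hq)
  have hp2 : 2 < c.p := by
    rcases hp with ⟨j, hj⟩
    have := c.prime.two_le
    omega
  set l := c.p - 1 with hl
  have hll : l * l % c.p = 1 := by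
    obtain ⟨r, hr⟩ : ∃ r, c.p = r + 2 := ⟨c.p - 2, by omega⟩
    rw [hl, hr, show (r + 2 - 1) * (r + 2 - 1) = 1 + (r + 2) * r by rw [show r + 2 - 1 = r + 1 by omega]; ring,
      Nat.add_mul_mod_self_left, Nat.mod_eq_of_lt (by omega)]
  obtain ⟨τ, hτG, hτS, hτP⟩ := exists_torus o.fixed.sylA (l := l) (fun hd => by
    have := Nat.le_of_dvd (by omega) hd; omega)
  have hτE : ∀ e ∈ E 0, τ * e * τ⁻¹ ∈ E 0 := fun e he => by
    have h1 := mul_mem (c.Qx_le_syl o.fixed.sylA (hτS e he)) (pow_mem he (l * l))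
    rwa [inv_mul_cancel_right] at h1
  obtain ⟨-, hτ2⟩ := hτP _ _ (secPair_module o.fixed.sylA)
  set N0 := ⁅c.Qx (P 0), c.Qx (P 0)⁆ with hN0
  have hN0n : c.Gx (P 0) ≤ Subgroup.normalizer (N0 : Set Γ) := le_normalizer_of_conj_le fun s hs => by
    rw [hN0, cj_commutator, cj_Qx_eq hs]
  have hN0Y := o.core_core_comm
  set d₁ := q₀⁻¹ * (τ * q₀ * τ⁻¹) with hd₁
  have hd₁D : d₁ ∈ D := o.fixed.triv_core hq₀ hτG
  set q₁ := w⁻¹ * (τ * w * τ⁻¹) with hq₁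
  have hq₁Q : q₁ ∈ c.Qx (P 0) := by
    have h1 := hτS w (o.Y_le hwY)
    rw [pow_eq_pow_mod (l * l) hwp, hll, pow_one] at h1
    have h2 := (Subgroup.mem_normalizer_iff.1
      (c.Gx_le_normalizer_Qx (P 0) (c.syl_le_Gx o.fixed.sylA (inv_mem (o.Y_le hwY)))) _).1 h1
    rw [hq₁]
    simpa [mul_assoc] using h2
  have hwcomm : ∀ {n y : Γ}, n ∈ N0 → y ∈ Y → y * n * y⁻¹ = n := fun hn hy => by
    rw [(hN0Y _ hn _ hy).eq, mul_inv_cancel_right]
  obtain ⟨ρ, hρ, hρe⟩ : ∃ ρ ∈ Zc (E 0), ⁅q₀ * d₁, w⁆ = ρ * ⁅q₀, w⁆ := by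
    obtain ⟨v', hv', t', -, htY', e⟩ := o.dec d₁ hd₁D
    have hz : ⁅d₁, w⁆ ∈ Zc (E 0) := by
      rw [← e, comm_mul_left, commute_comm_one (htY' w hwY), mul_one, mul_inv_cancel, one_mul]
      exact comm_mem_Zc o.fixed.sylA hv' (o.Y_le hwY)
    refine ⟨⁅d₁, w⁆, hz, ?_⟩
    rw [comm_mul_left, Subgroup.mem_centralizer_iff.1 hz.2 q₀ (c.Qx_le_syl o.fixed.sylA hq₀), mul_inv_cancel_right]
  set n := ⁅q₀ * d₁, q₁⁆ with hn
  have hnN : n ∈ N0 :=
    Subgroup.commutator_mem_commutator ((c.Qx (P 0)).mul_mem hq₀ hd₁D.1) hq₁Q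
  have eτ : τ * ⁅q₀, w⁆ * τ⁻¹ = ρ * ⁅q₀, w⁆ * n := by
    calc τ * ⁅q₀, w⁆ * τ⁻¹ = ⁅τ * q₀ * τ⁻¹, τ * w * τ⁻¹⁆ := by simp [commutatorElement_def, mul_assoc]
      _ = ⁅q₀ * d₁, w * q₁⁆ := by rw [hd₁, hq₁, mul_inv_cancel_left, mul_inv_cancel_left]
      _ = _ := by rw [comm_mul_right, ← hn, hwcomm hnN hwY, hρe]
  -- the moved fixed part still commutes with `Y`
  have ht' : ∀ y ∈ Y, Commute (τ * t * τ⁻¹) y := by
    intro y hy
    have htD : τ * t * τ⁻¹ ∈ D := (Subgroup.mem_normalizer_iff.1 (o.fixed.D_normal hτG) t).1 ht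
    refine (commute_of_comm_one (o.comm_eq_one hN0n hN0Y htD hy ?_)).symm
    set q₂ := y⁻¹ * (τ⁻¹ * y * τ) with hq₂
    have hq₂Q : q₂ ∈ c.Qx (P 0) := by
      have hy2 : y ^ c.p = 1 := c.Vx_elem hy
      have h1 := hτS y (o.Y_le hy)
      rw [pow_eq_pow_mod (l * l) hy2, hll, pow_one] at h1
      have h2 := (Subgroup.mem_normalizer_iff.1 (c.Gx_le_normalizer_Qx (P 0)
        (mul_mem (c.syl_le_Gx o.fixed.sylA (inv_mem (o.Y_le hy))) (inv_mem hτG))) _).1 (inv_mem h1)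
      rw [hq₂]
      simpa [mul_assoc] using h2
    have e : ⁅y, τ * t * τ⁻¹⁆ = τ * (y * ⁅q₂, t⁆ * y⁻¹) * τ⁻¹ := by
      have e1 : ⁅y * q₂, t⁆ = y * ⁅q₂, t⁆ * y⁻¹ := by
        rw [comm_mul_left, commute_comm_one (htY y hy).symm, mul_one]
      rw [← e1, hq₂, mul_inv_cancel_left]
      simp [commutatorElement_def, mul_assoc]
    rw [e, hwcomm (Subgroup.commutator_mem_commutator hq₂Q ht.1) hy]
    exact (Subgroup.mem_normalizer_iff.1 (hN0n hτG) _).1 (Subgroup.commutator_mem_commutator hq₂Q ht.1)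
  obtain ⟨z, hz, ez⟩ : ∃ z ∈ Zc (E 0), τ * v * τ⁻¹ = z * v⁻¹ := by
    have h1 := hτ2 l hll v hv
    refine ⟨τ * v * τ⁻¹ * (v ^ l)⁻¹, ?_, ?_⟩
    · refine ⟨c.Vx_le_syl o.fixed.sylA h1.1, Subgroup.mem_centralizer_iff.2 fun e he => ?_⟩
      exact (commute_of_comm_one (o.fixed.eq_one_of_central h1.1 he (h1.2.2 e he).2)).symm.eq
    · have : v ^ l = v⁻¹ := eq_inv_of_mul_eq_one_left (by
        rw [← pow_succ, show l + 1 = c.p by omega, c.Vx_elem hv])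
      rw [this, inv_inv]; group
  have hv2 : ∀ y ∈ Y, Commute (v * v) y := by
    intro y hy
    have hcY : ∀ {u : Γ}, u ∈ Zc (E 0) → Commute u y := fun hu =>
      (Subgroup.mem_centralizer_iff.1 hu.2 y (o.Y_le hy)).symm
    have hvE : v ∈ E 0 := c.Vx_le_syl o.fixed.sylA hv
    have e : ρ * (v * t) * n = z * v⁻¹ * (τ * t * τ⁻¹) := by
      rw [hvt, ← eτ, ← hvt, ← ez]; group
    have e' : v * v = z * ρ⁻¹ * (τ * t * τ⁻¹) * n⁻¹ * t⁻¹ := by
      have c1 : Commute v (z * ρ⁻¹) :=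
        Commute.mul_right (Subgroup.mem_centralizer_iff.1 hz.2 v hvE)
          (Commute.inv_right (Subgroup.mem_centralizer_iff.1 hρ.2 v hvE))
      have c2 : Commute ρ z := Subgroup.mem_centralizer_iff.1 hz.2 ρ hρ.1
      have hv3 : v = ρ⁻¹ * z * v⁻¹ * (τ * t * τ⁻¹) * n⁻¹ * t⁻¹ := by
        calc v = ρ⁻¹ * (ρ * (v * t) * n) * n⁻¹ * t⁻¹ := by group
          _ = _ := by rw [e]; group
      conv_lhs => arg 2; rw [hv3]
      rw [c2.inv_left.eq, ← mul_assoc v, ← mul_assoc v, ← mul_assoc v, ← mul_assoc v, c1.eq]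
      group
    rw [e']
    exact ((((hcY hz).mul_left (hcY hρ).inv_left).mul_left (ht' y hy)).mul_left
      (hN0Y n hnN y hy).symm.inv_left).mul_left (htY y hy).inv_left
  refine mem_Zc_of_commute o.fixed.sylA (o.Y_le hwY) hwQ hv ?_
  obtain ⟨j, hj⟩ := hp
  have : v = (v * v) ^ (j + 1) := by
    rw [← sq, ← pow_mul, show 2 * (j + 1) = c.p + 1 by omega, pow_succ, c.Vx_elem hv, one_mul]
  rw [this]
  exact (hv2 w hwY).pow_left _

theorem two_case (hp : c.p = 2) {q₀ w : Γ} (hwY : w ∈ Y)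
    (hwQ : w ∉ c.Qx (P 0)) {v t : Γ} (hv : v ∈ c.Vx (P 0)) (ht : t ∈ D) (htY : ∀ y ∈ Y, Commute t y)
    (hvt : v * t = ⁅q₀, w⁆) : v ∈ Zc (E 0) := by
  have hwp : w ^ c.p = 1 := c.Vx_elem hwY
  refine mem_Zc_of_commute o.fixed.sylA (o.Y_le hwY) hwQ hv ?_
  rw [hp] at hwp
  have hv2 : v ^ 2 = 1 := hp ▸ c.Vx_elem hv
  have h1 : (v * t * w) * (v * t * w) = 1 := by
    rw [hvt, commutatorElement_def, inv_mul_cancel_right, ← sq, conj_pow, hwp, mul_one, mul_inv_cancel]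
  have hvi : v⁻¹ = v := inv_eq_of_mul_eq_one_right (by rw [← sq]; exact hv2)
  have hwi : w⁻¹ = w := inv_eq_of_mul_eq_one_right (by rw [← sq]; exact hwp)
  have e : ⁅v, w⁆ * (t * t) = 1 := by
    rw [← h1, commutatorElement_def, hvi, hwi]
    have c1 : Commute t w := htY w hwY
    have c2 : Commute t v := (c.commute_Vx hv ht.1).symm
    calc v * w * v * w * (t * t) = v * w * v * (w * t) * t := by group
      _ = v * w * v * (t * w) * t := by rw [c1.eq]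
      _ = v * w * (v * t) * (w * t) := by group
      _ = v * w * (t * v) * (t * w) := by rw [c2.eq, c1.eq]
      _ = v * (w * t) * (v * (t * w)) := by group
      _ = _ := by rw [← c1.eq]; group
  have hmem : ⁅w, v⁆ ∈ fr c.p D := by
    rw [← commutatorElement_inv, eq_inv_of_mul_eq_one_left e, inv_inv, ← sq, ← hp]
    exact pow_mem_fr _ ht
  exact (commute_of_comm_one (o.comm_eq_one (normal_fr _ o.fixed.D_normal) o.fr_comm (o.Va_le_D hv) hwY hmem)).symm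

theorem elim : False := by
  obtain ⟨w, hwY, hwF, hwQ⟩ := o.exists_w
  obtain ⟨q₀, hq₀, hq₀b⟩ := o.exists_q
  obtain ⟨v, hv, t, ht, htY, hvt⟩ := o.dec _ (o.delta_mem q₀ hq₀ w hwY)
  refine o.nondeg hq₀ hq₀b hwY hwF fun y hy => ?_
  have hz : v ∈ Zc (E 0) := by
    rcases c.prime.eq_two_or_odd' with hp | hp
    · exact o.two_case hp hwY hwQ hv ht htY hvt
    · exact o.odd_case hp hq₀ hwY hwQ hv ht htY hvt
  rw [← hvt]
  exact Commute.mul_left (Subgroup.mem_centralizer_iff.1 hz.2 y (o.Y_le hy)).symm (htY y hy)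

end Off

end Fixed

end Conf

end CfsgLib.PushPair39
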