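import Cfsg.Agent.PushPair39.Interior

/-!
The core as a subgroup of largest measure, and the torus elements at a vertex.
-/

set_option autoImplicit false
set_option maxHeartbeats 400000
set_option linter.unusedSectionVars false

open scoped commutatorElement
open CfsgLib.PushingUp44 (cj mem_cj conj_mem_cj cj_one cj_cj cj_inv_cj cj_cj_inv cj_mono cj_le_cj cj_sup cj_inf
  cj_commutator cj_centralizer relIndex_cj cj_eq_of_le_normalizer cj_normalizer fixMod comm_symm_mem relIndex_pos)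
open CfsgLib.CentrallyLarge (cen)

namespace CfsgLib.PushPair39

variable {Γ : Type*} [Group Γ]

theorem card_cj (x : Γ) (H : Subgroup Γ) : Nat.card (cj x H) = Nat.card H :=
  Subgroup.card_map_of_injective (f := (MulAut.conj x).toMonoidHom) (MulAut.conj x).injective

theorem cj_fixMod (x : Γ) (M N H : Subgroup Γ) :
    cj x (fixMod M N (H : Set Γ)) = fixMod (cj x M) (cj x N) (cj x H : Set Γ) := by
  refine le_antisymm (CfsgLib.PushingUp44.cj_fixMod_le x fun h hh => mem_cj.1 hh) ?_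
  rw [← cj_le_cj x⁻¹, cj_inv_cj]
  refine (CfsgLib.PushingUp44.cj_fixMod_le x⁻¹ (H' := (H : Set Γ)) fun h hh => ?_).trans ?_
  · rw [inv_inv]; exact conj_mem_cj hh
  · rw [cj_inv_cj, cj_inv_cj]

theorem SecPair.cj {S G Q M N : Subgroup Γ} {q : ℕ} (P : SecPair S G Q q M N) (x : Γ) :
    SecPair (cj x S) (cj x G) (cj x Q) q (cj x M) (cj x N) := by
  have hc : ∀ {H : Subgroup Γ} {u : Γ}, u ∈ CfsgLib.PushingUp44.cj x H → x⁻¹ * u * x ∈ H := fun h => mem_cj.1 h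
  have hcomm : ∀ u v : Γ, x⁻¹ * ⁅u, v⁆ * x = ⁅x⁻¹ * u * x, x⁻¹ * v * x⁆ := fun u v => by
    simp [commutatorElement_def, mul_assoc]
  refine ⟨cj_mono x P.le_core, ?_, ?_, cj_mono x P.le, fun u hu v hv => ?_, fun u hu v hv => ?_,
    fun u hu s hs s' hs' => ?_, fun u hu hfix => ?_, ?_, fun hle => P.nontrivial ((cj_le_cj x).1 hle)⟩
  · rw [← cj_normalizer]; exact cj_mono x P.normM
  · rw [← cj_normalizer]; exact cj_mono x P.normN
  · rw [mem_cj, hcomm]; exact P.comm _ (hc hu) _ (hc hv)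
  · rw [mem_cj, hcomm]; exact P.core _ (hc hu) _ (hc hv)
  · rw [mem_cj, hcomm, hcomm]; exact P.quad _ (hc hu) _ (hc hs) _ (hc hs')
  · refine mem_cj.2 (P.noFix _ (hc hu) fun g hg => ?_)
    have h := hc (hfix (x * g * x⁻¹) (conj_mem_cj hg))
    rwa [hcomm, show x⁻¹ * (x * g * x⁻¹) * x = g by group] at h
  · rw [← cj_fixMod, relIndex_cj]; exact P.index

theorem TorusLike.cj {S G Q : Subgroup Γ} {p q l : ℕ} {t : Γ} (T : TorusLike p S G Q q l t) (x : Γ) :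
    TorusLike p (cj x S) (cj x G) (cj x Q) q l (x * t * x⁻¹) := by
  obtain ⟨htG, htS, htP⟩ := T
  have key : ∀ (u : Γ) (k : ℕ), x⁻¹ * (x * t * x⁻¹ * u * (x * t * x⁻¹)⁻¹ * (u ^ k)⁻¹) * x =
      t * (x⁻¹ * u * x) * t⁻¹ * ((x⁻¹ * u * x) ^ k)⁻¹ := fun u k => by
    rw [show (x⁻¹ * u * x) ^ k = x⁻¹ * u ^ k * x by
      have h := conj_pow (a := x⁻¹) (b := u) (i := k)
      rwa [inv_inv] at h]
    group
  refine ⟨conj_mem_cj htG, fun u hu => ?_, fun M N hP => ?_⟩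
  · rw [mem_cj, key]; exact htS _ (mem_cj.1 hu)
  have hP' := hP.cj x⁻¹
  simp only [cj_inv_cj] at hP'
  obtain ⟨h1, h2⟩ := htP _ _ hP'
  have hfix : fixMod M N (CfsgLib.PushingUp44.cj x S : Set Γ) = CfsgLib.PushingUp44.cj x
      (fixMod (CfsgLib.PushingUp44.cj x⁻¹ M) (CfsgLib.PushingUp44.cj x⁻¹ N) (S : Set Γ)) := by
    rw [cj_fixMod, cj_cj_inv, cj_cj_inv]
  refine ⟨fun u hu => ?_, fun κ hκ u hu => ?_⟩
  · rw [hfix, mem_cj] at hu
    have h := h1 _ hu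
    rw [← key, mem_cj, inv_inv] at h
    simpa [mul_assoc] using h
  · have h := h2 κ hκ (x⁻¹ * u * x) (by simpa [mem_cj, mul_assoc] using hu)
    rw [← key] at h
    rw [hfix, mem_cj]
    exact h

namespace Conf

variable {ι : Type*} {c : Conf Γ ι} [Finite Γ] {v : c.Vtx} {E : Subgroup Γ}

theorem IsMem.cj {X : Subgroup Γ} (hX : c.IsMem E X) (x : Γ) : c.IsMem (cj x E) (cj x X) := by
  refine ⟨cj_mono x hX.1, ?_⟩
  rw [cen, ← cj_centralizer, ← cj_inf, card_cj, card_cj]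
  exact hX.2

/-- The core has largest measure, with the module as its centralizer. -/
theorem isMem_core (h : c.Syl v E) :
    c.IsMem E (c.Qx v) ∧ E ⊓ cen (c.Qx v) = c.Vx v := by
  have hQE := c.Qx_le_syl h
  have hsub : c.Vx v ≤ E ⊓ cen (c.Qx v) := le_inf (c.Vx_le_syl h) (Subgroup.le_centralizer_iff.1 (c.Qx_le_centralizer v))
  have h1 : Nat.card E * Nat.card (Zc E) = c.f := by
    obtain ⟨g, hg, rfl⟩ := h
    rw [Zc_cj, card_cj, card_cj]
    exact c.f_eq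
  have h2 : Nat.card (c.Qx v) * Nat.card (c.Vx v) = c.f := by
    rw [← h1, ← card_mul_relIndex hQE, ← card_mul_relIndex (c.Zc_le_Vx h), relIndex_core h, relIndex_Zc h]
    ring
  have h3 : c.Vx v = E ⊓ cen (c.Qx v) := Subgroup.eq_of_le_of_card_ge hsub
    (Nat.le_of_mul_le_mul_left ((edge_f_le h hQE).trans h2.ge) Nat.card_pos)
  exact ⟨⟨hQE, by rw [← h3]; exact h2⟩, h3.symm⟩

theorem exists_torus (h : c.Syl v E) {l : ℕ} (hl : ¬ c.p ∣ l) :
    ∃ t, TorusLike c.p E (c.Gx v) (c.Qx v) (c.q v.1) l t := by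
  have hpair := secPair_module h
  obtain ⟨g, hg, rfl⟩ := h
  have hpair' := hpair.cj g⁻¹
  rw [Cx, cj_inf, cj_centralizer, c.Gx_eq hg, c.Vx_eq hg, c.Qx_eq hg] at hpair'
  simp only [cj_inv_cj] at hpair'
  obtain ⟨t, ht⟩ := c.torus v.1 l hl hpair'
  refine ⟨g * t * g⁻¹, ?_⟩
  rw [c.Gx_eq hg, c.Qx_eq hg]
  exact ht.cj g

end Conf

end CfsgLib.PushPair39
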