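import Cfsg.Agent.PushPair39.Conf

/-!
Vertices, edges and paths of a configuration for pushing up pairs.
-/

set_option autoImplicit false

open scoped commutatorElement
open CfsgLib.PushingUp44 (cj mem_cj conj_mem_cj cj_one cj_cj cj_inv_cj cj_cj_inv cj_mono cj_le_cj cj_injective cj_sup
  cj_iSup cj_inf cj_commutator cj_centralizer cj_centralizer_singleton relIndex_cj cj_eq_of_le_normalizer
  mem_normalizer_of_cj_eq cj_normalizer le_normalizer_of_conj_le commute_of_le_centralizer comm_mul_left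
  comm_mul_right commute_comm_one commute_of_comm_one exists_mul_of_mem_sup relIndex_pos relIndex_anti_left
  relIndex_mono_right eq_of_relIndex_le)

namespace CfsgLib.PushPair39

/-- Put `v` in front of a sequence. -/
def pre {α : Type*} (v : α) (P : ℕ → α) : ℕ → α
  | 0 => v
  | i + 1 => P i

@[simp] theorem pre_zero {α : Type*} (v : α) (P : ℕ → α) : pre v P 0 = v := rfl
@[simp] theorem pre_succ {α : Type*} (v : α) (P : ℕ → α) (i : ℕ) : pre v P (i + 1) = P i := rfl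
@[simp] theorem pre_one {α : Type*} (v : α) (P : ℕ → α) : pre v P 1 = P 0 := rfl
@[simp] theorem pre_two {α : Type*} (v : α) (P : ℕ → α) : pre v P 2 = P 1 := rfl

namespace Conf

variable {Γ : Type*} [Group Γ] {ι : Type*} (c : Conf Γ ι)

/-- Vertices. -/
abbrev Vtx (_c : Conf Γ ι) : Type _ := ι × Γ

def Gx (v : c.Vtx) : Subgroup Γ := cj v.2 (c.G v.1)
def Qx (v : c.Vtx) : Subgroup Γ := cj v.2 (c.Q v.1)
def Vx (v : c.Vtx) : Subgroup Γ := cj v.2 (c.V v.1)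
def Cx (v : c.Vtx) : Subgroup Γ := Subgroup.centralizer (c.Gx v : Set Γ)

/-- `E` is a distinguished Sylow subgroup at the vertex `v`. -/
def Syl (v : c.Vtx) (E : Subgroup Γ) : Prop := ∃ g, v.2⁻¹ * g ∈ c.G v.1 ∧ E = cj g c.S

theorem Vx_le_Qx (v : c.Vtx) : c.Vx v ≤ c.Qx v := cj_mono _ (c.V_le _)

theorem Qx_le_centralizer (v : c.Vtx) : c.Qx v ≤ Subgroup.centralizer (c.Vx v : Set Γ) := by
  unfold Qx Vx
  rw [← cj_centralizer]
  exact cj_mono _ (c.commVQ _)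

theorem commute_Vx {v : c.Vtx} {a b : Γ} (ha : a ∈ c.Vx v) (hb : b ∈ c.Qx v) : Commute a b :=
  (commute_of_le_centralizer (c.Qx_le_centralizer v) hb ha).symm

theorem Vx_comm (v : c.Vtx) : c.Vx v ≤ Subgroup.centralizer (c.Vx v : Set Γ) :=
  (c.Vx_le_Qx v).trans (c.Qx_le_centralizer v)

theorem Vx_elem {v : c.Vtx} {a : Γ} (ha : a ∈ c.Vx v) : a ^ c.p = 1 := by
  have h := c.elem v.1 _ (mem_cj.1 ha)
  have h2 : (v.2⁻¹ * a * v.2) ^ c.p = v.2⁻¹ * a ^ c.p * v.2 := by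
    conv_lhs => rw [show v.2⁻¹ * a * v.2 = v.2⁻¹ * a * v.2⁻¹⁻¹ by rw [inv_inv], conj_pow, inv_inv]
  rw [h2] at h
  calc a ^ c.p = v.2 * (v.2⁻¹ * a ^ c.p * v.2) * v.2⁻¹ := by group
    _ = 1 := by rw [h]; group

theorem cj_G_eq {i : ι} {g : Γ} (hg : g ∈ c.G i) : cj g (c.G i) = c.G i :=
  cj_eq_of_le_normalizer (Subgroup.le_normalizer hg)

theorem cj_Q_eq {i : ι} {g : Γ} (hg : g ∈ c.G i) : cj g (c.Q i) = c.Q i :=
  cj_eq_of_le_normalizer (c.normQ i hg)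

theorem cj_V_eq {i : ι} {g : Γ} (hg : g ∈ c.G i) : cj g (c.V i) = c.V i :=
  cj_eq_of_le_normalizer (c.normV i hg)

section rep

variable {v : c.Vtx} {g : Γ}

theorem Gx_eq (hg : v.2⁻¹ * g ∈ c.G v.1) : c.Gx v = cj g (c.G v.1) := by
  rw [Gx]; conv_lhs => rw [← c.cj_G_eq hg, cj_cj, mul_inv_cancel_left]

theorem Qx_eq (hg : v.2⁻¹ * g ∈ c.G v.1) : c.Qx v = cj g (c.Q v.1) := by
  rw [Qx]; conv_lhs => rw [← c.cj_Q_eq hg, cj_cj, mul_inv_cancel_left]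

theorem Vx_eq (hg : v.2⁻¹ * g ∈ c.G v.1) : c.Vx v = cj g (c.V v.1) := by
  rw [Vx]; conv_lhs => rw [← c.cj_V_eq hg, cj_cj, mul_inv_cancel_left]

end rep

theorem Syl.cj_eq {v : c.Vtx} {E : Subgroup Γ} (h : c.Syl v E) {x : Γ} (hx : x ∈ c.Gx v) :
    c.Syl v (cj x E) := by
  obtain ⟨g, hg, rfl⟩ := h
  refine ⟨x * g, ?_, cj_cj _ _ _⟩
  rw [show v.2⁻¹ * (x * g) = v.2⁻¹ * x * v.2 * (v.2⁻¹ * g) by group]
  exact mul_mem (mem_cj.1 hx) hg

section syl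

variable {v : c.Vtx} {E : Subgroup Γ} (h : c.Syl v E)
include h

theorem syl_le_Gx : E ≤ c.Gx v := by
  obtain ⟨g, hg, rfl⟩ := h
  rw [c.Gx_eq hg]; exact cj_mono _ (c.le_G _)

theorem Qx_le_syl : c.Qx v ≤ E := by
  obtain ⟨g, hg, rfl⟩ := h
  rw [c.Qx_eq hg]; exact cj_mono _ (c.Q_le _)

theorem Vx_le_syl : c.Vx v ≤ E := (c.Vx_le_Qx v).trans (c.Qx_le_syl h)

theorem syl_bound {a : Γ} (ha : a ∈ E) (haQ : a ∉ c.Qx v) :
    c.q v.1 ≤ (c.Vx v ⊓ Subgroup.centralizer ({a} : Set Γ)).relIndex (c.Vx v) := by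
  obtain ⟨g, hg, rfl⟩ := h
  rw [c.Qx_eq hg, mem_cj] at haQ
  have h1 := c.bound v.1 _ (mem_cj.1 ha) haQ
  rw [← relIndex_cj g, cj_inf, cj_centralizer_singleton, ← c.Vx_eq hg,
    show g * (g⁻¹ * a * g) * g⁻¹ = a by group] at h1
  exact h1

theorem syl_card : (c.Qx v).relIndex E ≤ c.q v.1 := by
  obtain ⟨g, hg, rfl⟩ := h
  rw [c.Qx_eq hg, relIndex_cj]; exact c.card_le _

theorem Zc_eq : Zc E = c.Vx v ⊓ Subgroup.centralizer (E : Set Γ) := by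
  obtain ⟨g, hg, rfl⟩ := h
  rw [Zc, ← cj_centralizer, c.Vx_eq hg, ← cj_inf, ← cj_inf, c.center_eq]

theorem Zc_le_Vx : Zc E ≤ c.Vx v := (c.Zc_eq h).trans_le inf_le_left

/-- Some other Sylow subgroup generates the vertex group together with `E`. -/
theorem exists_opp : ∃ E', c.Syl v E' ∧ E ⊔ E' = c.Gx v := by
  obtain ⟨g, hg, rfl⟩ := h
  obtain ⟨t, ht, htM⟩ := c.exists_not_mem v.1
  refine ⟨cj (g * t) c.S, ⟨g * t, ?_, rfl⟩, ?_⟩
  · rw [← mul_assoc]; exact mul_mem hg ht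
  · rw [← cj_cj, ← cj_sup, c.gen v.1 t ht htM, c.Gx_eq hg]

/-- An element of an opposite Sylow subgroup outside `O_p` moves `E` to an opposite one. -/
theorem opp_cj {E' : Subgroup Γ} (h' : c.Syl v E') (hopp : E ⊔ E' = c.Gx v) {x : Γ} (hx : x ∈ E')
    (hxQ : x ∉ c.Qx v) : E ⊔ cj x E = c.Gx v := by
  refine le_antisymm (sup_le (c.syl_le_Gx h)
    (c.syl_le_Gx (Syl.cj_eq c h (c.syl_le_Gx h' hx)))) ?_
  obtain ⟨g, hg, rfl⟩ := h
  obtain ⟨g', hg', rfl⟩ := h'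
  set t := g⁻¹ * g' with ht
  have htG : t ∈ c.G v.1 := by
    rw [show t = (v.2⁻¹ * g)⁻¹ * (v.2⁻¹ * g') by rw [ht]; group]
    exact mul_mem (inv_mem hg) hg'
  have htM : t ∉ c.M v.1 := by
    intro htM
    obtain ⟨u, hu, huM⟩ := c.exists_not_mem v.1
    apply huM
    have h1 : cj g c.S ⊔ cj g' c.S ≤ cj g (c.M v.1) := by
      refine sup_le (cj_mono _ (c.S_le_M _)) ?_
      rw [show g' = g * t by rw [ht]; group, ← cj_cj, cj_le_cj]
      exact (cj_mono _ (c.S_le_M _)).trans_eq (cj_eq_of_le_normalizer (Subgroup.le_normalizer htM))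
    rw [hopp, c.Gx_eq hg, cj_le_cj] at h1
    exact h1 hu
  set s := g⁻¹ * x * g with hs
  have hs' : s ∈ cj t c.S := by
    rw [mem_cj, hs, ht, show (g⁻¹ * g')⁻¹ * (g⁻¹ * x * g) * (g⁻¹ * g') = g'⁻¹ * x * g' by group]
    exact mem_cj.1 hx
  have hsM : s ∉ c.M v.1 := fun hsM => hxQ (by
    rw [c.Qx_eq hg, mem_cj]; exact c.ti v.1 t htG htM ⟨hs', hsM⟩)
  have hsG : s ∈ c.G v.1 := (cj_mono t (c.le_G v.1)).trans_eq (c.cj_G_eq htG) hs'
  rw [cj_cj, show x * g = g * s by rw [hs]; group, ← cj_cj, ← cj_sup, c.gen v.1 s hsG hsM, c.Gx_eq hg]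

theorem sup_zpowers {E' : Subgroup Γ} (h' : c.Syl v E') (hopp : E ⊔ E' = c.Gx v) {y : Γ} (hy : y ∈ E')
    (hyQ : y ∉ c.Qx v) : E ⊔ Subgroup.zpowers y = c.Gx v := by
  refine le_antisymm (sup_le (c.syl_le_Gx h) (Subgroup.zpowers_le.2 (c.syl_le_Gx h' hy))) ?_
  rw [← c.opp_cj h h' hopp hy hyQ]
  refine sup_le le_sup_left fun z hz => ?_
  have hy' : y ∈ E ⊔ Subgroup.zpowers y := Subgroup.mem_sup_right (Subgroup.mem_zpowers y)
  have h1 : y⁻¹ * z * y ∈ E ⊔ Subgroup.zpowers y := Subgroup.mem_sup_left (mem_cj.1 hz)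
  simpa [mul_assoc] using mul_mem (mul_mem hy' h1) (inv_mem hy')

end syl

/-- `v` and `w` are adjacent along the edge group `E`. -/
def Step (v w : c.Vtx) (E : Subgroup Γ) : Prop :=
  ∃ e a, a ∈ Subgroup.normalizer (c.S : Set Γ) ∧ v.2⁻¹ * e ∈ c.G v.1 ∧
    w.2⁻¹ * (e * a) ∈ c.G w.1 ∧ E = cj e c.S

variable {c}

theorem Step.symm {v w : c.Vtx} {E : Subgroup Γ} (h : c.Step v w E) : c.Step w v E := by
  obtain ⟨e, a, ha, h1, h2, rfl⟩ := h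
  refine ⟨e * a, a⁻¹, inv_mem ha, h2, by rwa [mul_inv_cancel_right], ?_⟩
  rw [← cj_cj, cj_eq_of_le_normalizer ha]

theorem Step.syl_left {v w : c.Vtx} {E : Subgroup Γ} (h : c.Step v w E) : c.Syl v E := by
  obtain ⟨e, a, -, h1, -, rfl⟩ := h
  exact ⟨e, h1, rfl⟩

theorem Step.syl_right {v w : c.Vtx} {E : Subgroup Γ} (h : c.Step v w E) : c.Syl w E :=
  h.symm.syl_left

theorem Syl.step_self {v : c.Vtx} {E : Subgroup Γ} (h : c.Syl v E) : c.Step v v E := by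
  obtain ⟨e, h1, rfl⟩ := h
  exact ⟨e, 1, one_mem _, h1, by rwa [mul_one], rfl⟩

variable (c)

/-- Left translation of vertices. -/
def act (x : Γ) (v : c.Vtx) : c.Vtx := (v.1, x * v.2)

theorem Gx_act (x : Γ) (v : c.Vtx) : c.Gx (c.act x v) = cj x (c.Gx v) := (cj_cj _ _ _).symm
theorem Qx_act (x : Γ) (v : c.Vtx) : c.Qx (c.act x v) = cj x (c.Qx v) := (cj_cj _ _ _).symm
theorem Vx_act (x : Γ) (v : c.Vtx) : c.Vx (c.act x v) = cj x (c.Vx v) := (cj_cj _ _ _).symm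

variable {c}

theorem Step.act {v w : c.Vtx} {E : Subgroup Γ} (h : c.Step v w E) (x : Γ) :
    c.Step (c.act x v) (c.act x w) (cj x E) := by
  obtain ⟨e, a, ha, h1, h2, rfl⟩ := h
  refine ⟨x * e, a, ha, ?_, ?_, cj_cj _ _ _⟩
  · simpa [Conf.act, mul_assoc] using h1
  · simpa [Conf.act, mul_assoc] using h2

theorem Step.act_right {v w : c.Vtx} {E : Subgroup Γ} (h : c.Step v w E) {x : Γ} (hx : x ∈ c.Gx v) :
    c.Step v (c.act x w) (cj x E) := by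
  obtain ⟨e, a, ha, h1, h2, rfl⟩ := h
  refine ⟨x * e, a, ha, ?_, ?_, cj_cj _ _ _⟩
  · rw [show v.2⁻¹ * (x * e) = v.2⁻¹ * x * v.2 * (v.2⁻¹ * e) by group]
    exact mul_mem (mem_cj.1 hx) h1
  · simpa [Conf.act, mul_assoc] using h2

variable (c)

/-- A sequence of `j` steps. -/
def IsPath (j : ℕ) (P : ℕ → c.Vtx) (E : ℕ → Subgroup Γ) : Prop :=
  ∀ i < j, c.Step (P i) (P (i + 1)) (E i)

/-- Distance at most `j`. -/
def Near (j : ℕ) (v w : c.Vtx) : Prop :=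
  ∃ (P : ℕ → c.Vtx) (E : ℕ → Subgroup Γ), c.IsPath j P E ∧ P 0 = v ∧ P j = w

variable {c}

theorem IsPath.near {j : ℕ} {P : ℕ → c.Vtx} {E : ℕ → Subgroup Γ} (h : c.IsPath j P E) {a b : ℕ}
    (hab : a ≤ b) (hb : b ≤ j) : c.Near (b - a) (P a) (P b) := by
  refine ⟨fun i => P (a + i), fun i => E (a + i), fun i hi => h (a + i) (by omega), rfl, ?_⟩
  simp [Nat.add_sub_cancel' hab]

theorem IsPath.reverse {j : ℕ} {P : ℕ → c.Vtx} {E : ℕ → Subgroup Γ} (h : c.IsPath j P E) :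
    c.IsPath j (fun i => P (j - i)) (fun i => E (j - 1 - i)) := by
  intro i hi
  have h1 := (h (j - 1 - i) (by omega)).symm
  rw [show j - 1 - i + 1 = j - i by omega] at h1
  show c.Step (P (j - i)) (P (j - (i + 1))) (E (j - 1 - i))
  rw [show j - (i + 1) = j - 1 - i by omega]
  exact h1

theorem IsPath.cons {j : ℕ} {P : ℕ → c.Vtx} {E : ℕ → Subgroup Γ} (h : c.IsPath j P E) {v : c.Vtx}
    {F : Subgroup Γ} (hs : c.Step v (P 0) F) : c.IsPath (j + 1) (pre v P) (pre F E) := by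
  intro i hi
  cases i with
  | zero => exact hs
  | succ i => exact h i (by omega)

theorem Near.symm {j : ℕ} {v w : c.Vtx} (h : c.Near j v w) : c.Near j w v := by
  obtain ⟨P, E, hP, h0, hj⟩ := h
  exact ⟨_, _, hP.reverse, by simpa using hj, by simpa using h0⟩

theorem Near.cons {j : ℕ} {u v w : c.Vtx} {F : Subgroup Γ} (hs : c.Step u v F) (h : c.Near j v w) :
    c.Near (j + 1) u w := by
  obtain ⟨P, E, hP, h0, hj⟩ := h
  exact ⟨_, _, hP.cons (h0.symm ▸ hs), rfl, hj⟩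

theorem near_self (v : c.Vtx) : c.Near 0 v v :=
  ⟨fun _ => v, fun _ => c.S, fun i hi => absurd hi (by omega), rfl, rfl⟩

theorem Near.mono {j j' : ℕ} {v w : c.Vtx} (h : c.Near j v w) (hj : j ≤ j') : c.Near j' v w := by
  induction hj with
  | refl => exact h
  | step _ ih => exact Near.cons (Syl.step_self ⟨v.2, by simp, rfl⟩) ih

theorem Near.act {j : ℕ} {v w : c.Vtx} (h : c.Near j v w) (x : Γ) :
    c.Near j (c.act x v) (c.act x w) := by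
  obtain ⟨P, E, hP, h0, hj⟩ := h
  exact ⟨fun i => c.act x (P i), fun i => cj x (E i), fun i hi => (hP i hi).act x, by simp only [h0],
    by simp only [hj]⟩

variable (c)


section extra

variable {c}

theorem Gx_le_normalizer_Vx (c : Conf Γ ι) (v : c.Vtx) : c.Gx v ≤ Subgroup.normalizer (c.Vx v : Set Γ) := by
  rw [Gx, Vx, ← cj_normalizer]; exact cj_mono _ (c.normV _)

theorem Gx_le_normalizer_Qx (c : Conf Γ ι) (v : c.Vtx) : c.Gx v ≤ Subgroup.normalizer (c.Qx v : Set Γ) := by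
  rw [Gx, Qx, ← cj_normalizer]; exact cj_mono _ (c.normQ _)

variable {v w u : c.Vtx} {E F : Subgroup Γ}

theorem cj_Vx_eq {x : Γ} (hx : x ∈ c.Gx v) : cj x (c.Vx v) = c.Vx v :=
  cj_eq_of_le_normalizer (c.Gx_le_normalizer_Vx v hx)

theorem cj_Qx_eq {x : Γ} (hx : x ∈ c.Gx v) : cj x (c.Qx v) = c.Qx v :=
  cj_eq_of_le_normalizer (c.Gx_le_normalizer_Qx v hx)

theorem cj_Gx_eq {x : Γ} (hx : x ∈ c.Gx v) : cj x (c.Gx v) = c.Gx v :=
  cj_eq_of_le_normalizer (Subgroup.le_normalizer hx)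

theorem Zc_cj (x : Γ) (E : Subgroup Γ) : Zc (cj x E) = cj x (Zc E) := by
  rw [Zc, Zc, cj_inf, cj_centralizer]

theorem exists_opp_elem (h : c.Syl v E) : ∃ x ∈ c.Gx v, cj x E ⊔ E = c.Gx v := by
  obtain ⟨F, ⟨g', hg', hF'⟩, hopp⟩ := c.exists_opp h
  obtain ⟨g, hg, rfl⟩ := h
  refine ⟨g' * g⁻¹, ?_, ?_⟩
  · rw [Gx, mem_cj, show v.2⁻¹ * (g' * g⁻¹) * v.2 = v.2⁻¹ * g' * (v.2⁻¹ * g)⁻¹ by group]
    exact mul_mem hg' (inv_mem hg)
  · rw [cj_cj, inv_mul_cancel_right, ← hF', sup_comm, hopp]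

theorem Syl.exists_conj {E' : Subgroup Γ} (h : c.Syl v E) (h' : c.Syl v E') :
    ∃ x ∈ c.Gx v, cj x E = E' := by
  obtain ⟨g, hg, rfl⟩ := h
  obtain ⟨g', hg', rfl⟩ := h'
  refine ⟨g' * g⁻¹, ?_, ?_⟩
  · rw [Gx, mem_cj, show v.2⁻¹ * (g' * g⁻¹) * v.2 = v.2⁻¹ * g' * (v.2⁻¹ * g)⁻¹ by group]
    exact mul_mem hg' (inv_mem hg)
  · rw [cj_cj, inv_mul_cancel_right]

/-- Sylow subgroups that are not opposite have the same opposite ones. -/
theorem opp_congr {E' : Subgroup Γ} (hE : c.Syl v E) (hF : c.Syl v F) (hE' : c.Syl v E')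
    (hnot : E ⊔ F ≠ c.Gx v) (hopp : E ⊔ E' = c.Gx v) : F ⊔ E' = c.Gx v := by
  obtain ⟨g, hg, rfl⟩ := hE
  obtain ⟨y, hy, rfl⟩ := hF
  obtain ⟨z, hz, rfl⟩ := hE'
  have hdiv : ∀ a b : Γ, v.2⁻¹ * a ∈ c.G v.1 → v.2⁻¹ * b ∈ c.G v.1 → a⁻¹ * b ∈ c.G v.1 := fun a b ha hb => by
    rw [show a⁻¹ * b = (v.2⁻¹ * a)⁻¹ * (v.2⁻¹ * b) by group]
    exact mul_mem (inv_mem ha) hb
  have hiff : ∀ a b : Γ, v.2⁻¹ * a ∈ c.G v.1 → v.2⁻¹ * b ∈ c.G v.1 →
      (cj a c.S ⊔ cj b c.S = c.Gx v ↔ a⁻¹ * b ∉ c.M v.1) := by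
    intro a b ha hb
    constructor
    · intro h hM
      obtain ⟨t, ht, htM⟩ := c.exists_not_mem v.1
      apply htM
      have h1 : cj a c.S ⊔ cj b c.S ≤ cj a (c.M v.1) := by
        refine sup_le (cj_mono _ (c.S_le_M _)) ?_
        rw [show b = a * (a⁻¹ * b) by group, ← cj_cj, cj_le_cj]
        exact (cj_mono _ (c.S_le_M _)).trans_eq (cj_eq_of_le_normalizer (Subgroup.le_normalizer hM))
      rw [h, c.Gx_eq ha, cj_le_cj] at h1
      exact h1 ht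
    · intro hM
      rw [show cj b c.S = cj a (cj (a⁻¹ * b) c.S) by rw [cj_cj, mul_inv_cancel_left], ← cj_sup,
        c.gen v.1 _ (hdiv a b ha hb) hM, c.Gx_eq ha]
  have h1 : g⁻¹ * y ∈ c.M v.1 := by_contra fun h => hnot ((hiff g y hg hy).2 h)
  refine (hiff y z hy hz).2 fun h => (hiff g z hg hz).1 hopp ?_
  rw [show g⁻¹ * z = g⁻¹ * y * (y⁻¹ * z) by group]
  exact mul_mem h1 h

theorem Step.trans (h : c.Step v w E) (h' : c.Step w u E) : c.Step v u E := by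
  obtain ⟨e, a, ha, h1, h2, rfl⟩ := h
  obtain ⟨e', a', ha', h1', h2', hE⟩ := h'
  have hn : (e * a)⁻¹ * e' ∈ Subgroup.normalizer (c.S : Set Γ) := by
    refine mem_normalizer_of_cj_eq ?_
    rw [← cj_cj, ← hE, cj_cj, show (e * a)⁻¹ * e = a⁻¹ by group, cj_eq_of_le_normalizer (inv_mem ha)]
  refine ⟨e, a * ((e * a)⁻¹ * e' * a'), mul_mem ha (mul_mem hn ha'), h1, ?_, rfl⟩
  rwa [show e * (a * ((e * a)⁻¹ * e' * a')) = e' * a' by group]

theorem Syl.killer (h : c.Syl v E) : ∃ X : Subgroup Γ, X ≤ wd c.p E ∧ X ≤ Zc E ∧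
    ∀ N : Subgroup Γ, c.Gx v ≤ Subgroup.normalizer (N : Set Γ) → X ≤ N →
      E ⊓ Subgroup.centralizer (N : Set Γ) ≤ c.Qx v := by
  obtain ⟨g, hg, rfl⟩ := h
  have hp : ∀ (H : Subgroup Γ) n, Cfsg.powerClosure c.p n (cj g H) = cj g (Cfsg.powerClosure c.p n H) := by
    intro H n
    rw [Cfsg.powerClosure, Cfsg.powerClosure]
    conv_rhs => rw [cj, MonoidHom.map_closure]
    congr 1
    ext y
    constructor
    · rintro ⟨_, ⟨x, hx, rfl⟩, rfl⟩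
      exact ⟨x ^ c.p ^ n, ⟨x, hx, rfl⟩, map_pow _ _ _⟩
    · rintro ⟨_, ⟨x, hx, rfl⟩, rfl⟩
      exact ⟨_, ⟨x, hx, rfl⟩, map_pow _ _ _⟩
  have hfr : ∀ H : Subgroup Γ, fr c.p (cj g H) = cj g (fr c.p H) := fun H => by
    rw [fr, fr, hp, ← cj_commutator, ← cj_sup]
  have hwd : wd c.p (cj g c.S) = cj g (wd c.p c.S) := by
    rw [wd, wd]
    simp only [hfr, hp, ← cj_commutator, ← cj_sup]
    split_ifs <;> rfl
  refine ⟨cj g c.W, hwd ▸ cj_mono _ c.W_wd, (cj_mono _ c.W_le).trans (Zc_cj g c.S).ge,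
    fun N hN hWN => ?_⟩
  have h1 := c.killer v.1 (cj g⁻¹ N) ?_ ?_
  · rw [c.Qx_eq hg, ← cj_le_cj g⁻¹, cj_inv_cj, cj_inf, cj_centralizer, cj_inv_cj]
    exact h1
  · rw [← cj_le_cj g, cj_normalizer, cj_cj_inv, ← c.Gx_eq hg]
    exact hN
  · rw [← cj_le_cj g, cj_cj_inv]
    exact hWN

theorem Syl.gen_V (h : c.Syl v E) {U : Subgroup Γ} (hU : c.Gx v ≤ Subgroup.normalizer (U : Set Γ))
    (hZ : Zc E ≤ U) : c.Vx v ≤ U := by
  obtain ⟨g, hg, rfl⟩ := h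
  rw [c.Vx_eq hg, ← cj_le_cj g⁻¹, cj_inv_cj]
  refine c.gen_V v.1 _ ?_ ?_
  · rw [← cj_le_cj g, cj_normalizer, cj_cj_inv, ← c.Gx_eq hg]; exact hU
  · rw [← cj_le_cj g, cj_cj_inv, ← Zc_cj]; exact hZ

end extra

end Conf

end CfsgLib.PushPair39
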